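import Cfsg.Agent.H879.E83.Tab

/-!
# S5925, box G3: the equations C1 and C3 in coordinates

`ι : Mt F × Mt F → L` the embedding of `gl(W₀) ⊕ gl(W₁)` (scalars to `0`) with image the fixed space of `y`;
`T ι(A, B) = ι(- q₀⁻¹ Aᵀ q₀, - q₁⁻¹ Bᵀ q₁)`.
-/

set_option autoImplicit false
set_option linter.style.longLine false

namespace Cfsg.Agent.H879.E83
open Matrix

abbrev Mt (F : Type*) := Matrix (Fin 5) (Fin 5) F

section defs
variable {F : Type*} [Field F]

def cr5 (k : Fin 5 → F) (A : Mt F) (a : Fin 5) : F := ∑ c, k (a - c) * A c c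

/-- `pr_u (x .)`, first component -/
def XP0 (g : F) (A B : Mt F) : Mt F := fun a b =>
  if b = a then cr5 (k00 g) A a + cr5 (k01 g) B a
  else if b = a + 1 then g ^ 50 * A a b + c1 g a * B (a + 1) (a + 4)
  else if b = a + 2 then A a b
  else if b = a + 3 then 0
  else g ^ 70 * A a b + c4 g a * B (a + 3) a

/-- `pr_u (x .)`, second component -/
def XP1 (g : F) (A B : Mt F) : Mt F := fun a b =>
  if b = a then cr5 (k10 g) A a + cr5 (k11 g) B a
  else if b = a + 1 then B a b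
  else if b = a + 2 then g ^ 50 * B a b + d2 g a * A (a + 2) (a + 1)
  else if b = a + 3 then g ^ 70 * B a b + d3 g a * A (a + 4) a
  else 0

/-- `pr_u (x⁻¹ .)`, first component -/
def XM0 (g : F) (A B : Mt F) : Mt F := fun a b =>
  if b = a then cr5 (m00 g) A a + cr5 (m01 g) B a
  else if b = a + 1 then g ^ 70 * A a b - c1 g a * B (a + 1) (a + 4)
  else if b = a + 2 then 0
  else if b = a + 3 then A a b
  else g ^ 50 * A a b - c4 g a * B (a + 3) a

/-- `pr_u (x⁻¹ .)`, second component -/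
def XM1 (g : F) (A B : Mt F) : Mt F := fun a b =>
  if b = a then cr5 (m10 g) A a + cr5 (m11 g) B a
  else if b = a + 1 then 0
  else if b = a + 2 then g ^ 70 * B a b - d2 g a * A (a + 2) (a + 1)
  else if b = a + 3 then g ^ 50 * B a b - d3 g a * A (a + 4) a
  else B a b

/-- the fixed space of `B` in coordinates -/
def V0 (D : Fin 5 → F) : Mt F := Matrix.diagonal fun a => D (a - 2) - D a
def V1 (D : Fin 5 → F) : Mt F := Matrix.diagonal fun a => D a - D (a - 1)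

structure GFrame (g : F) {L : Type*} [AddCommGroup L] [Module F L] (X Y T : Module.End F L)
    (ι : Mt F × Mt F →ₗ[F] L) (q0 r0 q1 r1 : Mt F) : Prop where
  hg : g ^ 4 = 1 - g
  h3 : (3 : F) = 0
  rel : Rel X Y T
  sum0 : ∀ v : L, X • v = v → Y • v = v → v + sX X • T • v = 0
  inj : ∀ p : Mt F × Mt F, p.1.trace = 0 → p.2.trace = 0 → ι p = 0 → p = 0
  fixY : ∀ p : Mt F × Mt F, p.1.trace = 0 → p.2.trace = 0 → Y • ι p = ι p
  xp : ∀ p : Mt F × Mt F, p.1.trace = 0 → p.2.trace = 0 → ey Y • X • ι p = ι (XP0 g p.1 p.2, XP1 g p.1 p.2)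
  xm : ∀ p : Mt F × Mt F, p.1.trace = 0 → p.2.trace = 0 → ey Y • X ^ 10 • ι p = ι (XM0 g p.1 p.2, XM1 g p.1 p.2)
  tq : ∀ p : Mt F × Mt F, p.1.trace = 0 → p.2.trace = 0 → T • ι p = ι (-(r0 * p.1ᵀ * q0), -(r1 * p.2ᵀ * q1))
  rq0 : r0 * q0 = 1
  rq1 : r1 * q1 = 1

end defs

section lemmas
variable {F : Type*} [Field F] {g : F}

theorem fin5_or (a b : Fin 5) (h : b ≠ a) : b = a + 1 ∨ b = a + 2 ∨ b = a + 3 ∨ b = a + 4 := by
  revert a b; decide

theorem sum_sub_left (k : Fin 5 → F) (c : Fin 5) : ∑ a, k (a - c) = ∑ m, k m :=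
  Fintype.sum_equiv (Equiv.subRight c) _ _ fun _ => rfl

theorem sum_cr5 (k : Fin 5 → F) (A : Mt F) : ∑ a, cr5 k A a = (∑ m, k m) * A.trace := by
  unfold cr5
  rw [Finset.sum_comm]
  simp only [← Finset.sum_mul, sum_sub_left]
  rw [Matrix.trace, Finset.mul_sum]
  rfl

theorem trace_XP0 (hg : g ^ 4 = 1 - g) (h3 : (3 : F) = 0) (A B : Mt F) : (XP0 g A B).trace = 0 := by
  have e : (XP0 g A B).trace = ∑ a, cr5 (k00 g) A a + ∑ a, cr5 (k01 g) B a := by
    rw [← Finset.sum_add_distrib, Matrix.trace]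
    exact Finset.sum_congr rfl fun a _ => by simp [XP0]
  rw [e, sum_cr5, sum_cr5, sum_k00 hg h3, sum_k01 hg h3]; ring

theorem trace_XP1 (hg : g ^ 4 = 1 - g) (h3 : (3 : F) = 0) (A B : Mt F) : (XP1 g A B).trace = 0 := by
  have e : (XP1 g A B).trace = ∑ a, cr5 (k10 g) A a + ∑ a, cr5 (k11 g) B a := by
    rw [← Finset.sum_add_distrib, Matrix.trace]
    exact Finset.sum_congr rfl fun a _ => by simp [XP1]
  rw [e, sum_cr5, sum_cr5, sum_k10 hg h3, sum_k11 hg h3]; ring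

theorem trace_XM0 (hg : g ^ 4 = 1 - g) (h3 : (3 : F) = 0) (A B : Mt F) : (XM0 g A B).trace = 0 := by
  have e : (XM0 g A B).trace = ∑ a, cr5 (m00 g) A a + ∑ a, cr5 (m01 g) B a := by
    rw [← Finset.sum_add_distrib, Matrix.trace]
    exact Finset.sum_congr rfl fun a _ => by simp [XM0]
  rw [e, sum_cr5, sum_cr5, sum_m00 hg h3, sum_m01 hg h3]; ring

theorem trace_XM1 (hg : g ^ 4 = 1 - g) (h3 : (3 : F) = 0) (A B : Mt F) : (XM1 g A B).trace = 0 := by
  have e : (XM1 g A B).trace = ∑ a, cr5 (m10 g) A a + ∑ a, cr5 (m11 g) B a := by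
    rw [← Finset.sum_add_distrib, Matrix.trace]
    exact Finset.sum_congr rfl fun a _ => by simp [XM1]
  rw [e, sum_cr5, sum_cr5, sum_m10 hg h3, sum_m11 hg h3]; ring

theorem trace_V0 (D : Fin 5 → F) : (V0 D).trace = 0 := by
  rw [V0, Matrix.trace_diagonal, Finset.sum_sub_distrib]
  have : ∑ a, D (a - 2) = ∑ a, D a := sum_sub_left D 2
  rw [this, sub_self]

theorem trace_V1 (D : Fin 5 → F) : (V1 D).trace = 0 := by
  rw [V1, Matrix.trace_diagonal, Finset.sum_sub_distrib]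
  have : ∑ a, D (a - 1) = ∑ a, D a := sum_sub_left D 1
  rw [this, sub_self]

/-- the convolution of `k` with `D(· - s)` -/
theorem conv_shift (k D : Fin 5 → F) (a s : Fin 5) : ∑ c, k (a - c) * D (c - s) = ∑ c, k (a - c - s) * D c := by
  refine Fintype.sum_equiv (Equiv.subRight s) _ _ fun c => ?_
  change k (a - c) * D (c - s) = k (a - (c - s) - s) * D (c - s)
  congr 2
  revert a c s; decide

theorem circ_V (K0 K1 : Fin 5 → F) (D : Fin 5 → F) (t : Fin 5 → F)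
    (h : ∀ m, K0 (m - 2) - K0 m + K1 m - K1 (m - 1) = t m) (a : Fin 5) :
    cr5 K0 (V0 D) a + cr5 K1 (V1 D) a = ∑ c, t (a - c) * D c := by
  have e0 : cr5 K0 (V0 D) a = ∑ c, K0 (a - c - 2) * D c - ∑ c, K0 (a - c) * D c := by
    rw [← conv_shift K0 D a 2, ← Finset.sum_sub_distrib]
    exact Finset.sum_congr rfl fun c _ => by simp [V0, mul_sub]
  have e1 : cr5 K1 (V1 D) a = ∑ c, K1 (a - c) * D c - ∑ c, K1 (a - c - 1) * D c := by
    rw [← conv_shift K1 D a 1, ← Finset.sum_sub_distrib]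
    exact Finset.sum_congr rfl fun c _ => by simp [V1, mul_sub]
  rw [e0, e1, ← Finset.sum_sub_distrib, ← Finset.sum_sub_distrib, ← Finset.sum_add_distrib]
  refine Finset.sum_congr rfl fun c _ => ?_
  rw [← h]; ring

theorem delta_conv (D : Fin 5 → F) (a s : Fin 5) : ∑ c, (if a - c = s then (1 : F) else 0) * D c = D (a - s) := by
  have : ∀ c : Fin 5, (a - c = s) ↔ (c = a - s) := by revert a s; decide
  simp only [this, ite_mul, one_mul, zero_mul, Finset.sum_ite_eq', Finset.mem_univ, if_true]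

theorem circ_V0 {K0 K1 : Fin 5 → F}
    (h : ∀ m, K0 (m - 2) - K0 m + K1 m - K1 (m - 1) = (if m = 2 then 1 else 0) - (if m = 0 then 1 else 0))
    (D : Fin 5 → F) (a : Fin 5) : cr5 K0 (V0 D) a + cr5 K1 (V1 D) a = V0 D a a := by
  rw [circ_V K0 K1 D _ h, V0, Matrix.diagonal_apply_eq]
  simp only [sub_mul, Finset.sum_sub_distrib, delta_conv, sub_zero]

theorem circ_V1 {K0 K1 : Fin 5 → F}
    (h : ∀ m, K0 (m - 2) - K0 m + K1 m - K1 (m - 1) = (if m = 0 then 1 else 0) - (if m = 1 then 1 else 0))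
    (D : Fin 5 → F) (a : Fin 5) : cr5 K0 (V0 D) a + cr5 K1 (V1 D) a = V1 D a a := by
  rw [circ_V K0 K1 D _ h, V1, Matrix.diagonal_apply_eq]
  simp only [sub_mul, Finset.sum_sub_distrib, delta_conv, sub_zero]

theorem V0_off (D : Fin 5 → F) {a b : Fin 5} (h : a ≠ b) : V0 D a b = 0 := Matrix.diagonal_apply_ne _ h
theorem V1_off (D : Fin 5 → F) {a b : Fin 5} (h : a ≠ b) : V1 D a b = 0 := Matrix.diagonal_apply_ne _ h

theorem ne14 (a : Fin 5) : a + 1 ≠ a + 4 := by revert a; decide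
theorem ne30 (a : Fin 5) : a + 3 ≠ a := by revert a; decide
theorem ne21 (a : Fin 5) : a + 2 ≠ a + 1 := by revert a; decide
theorem ne40 (a : Fin 5) : a + 4 ≠ a := by revert a; decide

theorem XP0_V (hg : g ^ 4 = 1 - g) (h3 : (3 : F) = 0) (D : Fin 5 → F) : XP0 g (V0 D) (V1 D) = V0 D := by
  funext a b
  by_cases h : b = a
  · subst h
    simp only [XP0, if_true]
    exact circ_V0 (fix_k0 hg h3) D b
  · simp only [XP0, if_neg h, V0_off D (Ne.symm h), V1_off D (ne14 a), V1_off D (ne30 a), mul_zero, add_zero, ite_self]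

theorem XP1_V (hg : g ^ 4 = 1 - g) (h3 : (3 : F) = 0) (D : Fin 5 → F) : XP1 g (V0 D) (V1 D) = V1 D := by
  funext a b
  by_cases h : b = a
  · subst h
    simp only [XP1, if_true]
    exact circ_V1 (fix_k1 hg h3) D b
  · simp only [XP1, if_neg h, V1_off D (Ne.symm h), V0_off D (ne21 a), V0_off D (ne40 a), mul_zero, add_zero, ite_self]

theorem XM0_V (hg : g ^ 4 = 1 - g) (h3 : (3 : F) = 0) (D : Fin 5 → F) : XM0 g (V0 D) (V1 D) = V0 D := by
  funext a b
  by_cases h : b = a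
  · subst h
    simp only [XM0, if_true]
    exact circ_V0 (fix_m0 hg h3) D b
  · simp only [XM0, if_neg h, V0_off D (Ne.symm h), V1_off D (ne14 a), V1_off D (ne30 a), mul_zero, sub_zero, ite_self]

theorem XM1_V (hg : g ^ 4 = 1 - g) (h3 : (3 : F) = 0) (D : Fin 5 → F) : XM1 g (V0 D) (V1 D) = V1 D := by
  funext a b
  by_cases h : b = a
  · subst h
    simp only [XM1, if_true]
    exact circ_V1 (fix_m1 hg h3) D b
  · simp only [XM1, if_neg h, V1_off D (Ne.symm h), V0_off D (ne21 a), V0_off D (ne40 a), mul_zero, sub_zero, ite_self]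

end lemmas

section main
variable {F : Type*} [Field F] {g : F} {L : Type*} [AddCommGroup L] [Module F L] {X Y T : Module.End F L}
  {ι : Mt F × Mt F →ₗ[F] L} {q0 r0 q1 r1 : Mt F}

/-- the two components of `T v`, `v = ι (V0 D, V1 D)` -/
def TA (q0 r0 : Mt F) (D : Fin 5 → F) : Mt F := -(r0 * V0 D * q0)
def TB (q1 r1 : Mt F) (D : Fin 5 → F) : Mt F := -(r1 * V1 D * q1)

theorem trace_conj {q r A : Mt F} (h : r * q = 1) (hA : A.trace = 0) : (-(r * A * q)).trace = 0 := by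
  have h' : q * r = 1 := mul_eq_one_comm.mp h
  rw [Matrix.trace_neg, Matrix.trace_mul_comm, ← Matrix.mul_assoc, h', Matrix.one_mul, hA, neg_zero]

theorem GFrame.X_v (h : GFrame g X Y T ι q0 r0 q1 r1) (D : Fin 5 → F) : X • ι (V0 D, V1 D) = ι (V0 D, V1 D) := by
  set v := ι (V0 D, V1 D) with hv
  have hY : Y • v = v := h.fixY _ (trace_V0 D) (trace_V1 D)
  have e0 : ey Y • v = v := ey_of_fix h.rel hY
  have e1 : pP X Y • v = v := by
    rw [pP, mul_smul, mul_smul, e0, hv, h.xp _ (trace_V0 D) (trace_V1 D)]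
    simp only [XP0_V h.hg h.h3, XP1_V h.hg h.h3]
  have e2 : pM X Y • v = v := by
    rw [pM, mul_smul, mul_smul, e0, hv, h.xm _ (trace_V0 D) (trace_V1 D)]
    simp only [XM0_V h.hg h.h3, XM1_V h.hg h.h3]
  have e3 : p0 X Y • v = v := by rw [← pP_mul_pM h.rel, mul_smul, e2, e1]
  calc X • v = X • p0 X Y • v := by rw [e3]
    _ = v := by rw [← mul_smul, X_mul_p0 h.rel, e3]

theorem GFrame.Y_v (h : GFrame g X Y T ι q0 r0 q1 r1) (D : Fin 5 → F) : Y • ι (V0 D, V1 D) = ι (V0 D, V1 D) :=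
  h.fixY _ (trace_V0 D) (trace_V1 D)

theorem GFrame.T_v (h : GFrame g X Y T ι q0 r0 q1 r1) (D : Fin 5 → F) :
    T • ι (V0 D, V1 D) = ι (TA q0 r0 D, TB q1 r1 D) := by
  rw [h.tq _ (trace_V0 D) (trace_V1 D)]
  simp only [V0, V1, Matrix.diagonal_transpose, TA, TB]

theorem GFrame.trA (h : GFrame g X Y T ι q0 r0 q1 r1) (D : Fin 5 → F) : (TA q0 r0 D).trace = 0 :=
  trace_conj h.rq0 (trace_V0 D)

theorem GFrame.trB (h : GFrame g X Y T ι q0 r0 q1 r1) (D : Fin 5 → F) : (TB q1 r1 D).trace = 0 :=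
  trace_conj h.rq1 (trace_V1 D)

theorem GFrame.pP_T (h : GFrame g X Y T ι q0 r0 q1 r1) (D : Fin 5 → F) :
    pP X Y • T • ι (V0 D, V1 D) = ι (XP0 g (TA q0 r0 D) (TB q1 r1 D), XP1 g (TA q0 r0 D) (TB q1 r1 D)) := by
  have hY : Y • T • ι (V0 D, V1 D) = T • ι (V0 D, V1 D) := Y_T h.rel (h.Y_v D)
  rw [pP, mul_smul, mul_smul, ey_of_fix h.rel hY, h.T_v, h.xp _ (h.trA D) (h.trB D)]

theorem GFrame.pM_T (h : GFrame g X Y T ι q0 r0 q1 r1) (D : Fin 5 → F) :
    pM X Y • T • ι (V0 D, V1 D) = ι (XM0 g (TA q0 r0 D) (TB q1 r1 D), XM1 g (TA q0 r0 D) (TB q1 r1 D)) := by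
  have hY : Y • T • ι (V0 D, V1 D) = T • ι (V0 D, V1 D) := Y_T h.rel (h.Y_v D)
  rw [pM, mul_smul, mul_smul, ey_of_fix h.rel hY, h.T_v, h.xm _ (h.trA D) (h.trB D)]

theorem GFrame.inj' (h : GFrame g X Y T ι q0 r0 q1 r1) {p p' : Mt F × Mt F} (h1 : p.1.trace = p'.1.trace)
    (h2 : p.2.trace = p'.2.trace) (e : ι p = ι p') : p = p' := by
  rw [← sub_eq_zero]
  refine h.inj _ ?_ ?_ (by rw [map_sub, e, sub_self])
  · rw [Prod.fst_sub, Matrix.trace_sub, h1, sub_self]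
  · rw [Prod.snd_sub, Matrix.trace_sub, h2, sub_self]

/-- C1 in matrix form -/
theorem GFrame.C1m (h : GFrame g X Y T ι q0 r0 q1 r1) (D : Fin 5 → F) :
    XP0 g (TA q0 r0 D) (TB q1 r1 D) + XM0 g (TA q0 r0 D) (TB q1 r1 D) - TA q0 r0 D = V0 D ∧
    XP1 g (TA q0 r0 D) (TB q1 r1 D) + XM1 g (TA q0 r0 D) (TB q1 r1 D) - TB q1 r1 D = V1 D := by
  have hX := h.X_v D
  have hYv := h.Y_v D
  have hY : Y • T • ι (V0 D, V1 D) = T • ι (V0 D, V1 D) := Y_T h.rel hYv
  have e0 : p0 X Y • T • ι (V0 D, V1 D) = ι (V0 D, V1 D) := by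
    have e := h.sum0 _ hX hYv
    rw [p0, mul_smul, ey_of_fix h.rel hY, ex, neg_smul, eq_comm, ← sub_eq_zero, sub_neg_eq_add, e]
  have e1 : p0 X Y • T • ι (V0 D, V1 D) = pP X Y • T • ι (V0 D, V1 D) + pM X Y • T • ι (V0 D, V1 D) - T • ι (V0 D, V1 D) := by
    have : ey Y • T • ι (V0 D, V1 D) = T • ι (V0 D, V1 D) := ey_of_fix h.rel hY
    conv_rhs => rw [← this]
    have e2 : p0 X Y = pP X Y + pM X Y - ey Y := by rw [ey_eq h.rel]; abel
    rw [this, e2, sub_smul, add_smul, this]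
  rw [e0, h.pP_T, h.pM_T, h.T_v, ← map_add, ← map_sub] at e1
  have e3 := h.inj' ?_ ?_ e1
  · exact ⟨(congrArg Prod.fst e3).symm, (congrArg Prod.snd e3).symm⟩
  · simp only [Prod.fst_sub, Prod.fst_add, Matrix.trace_sub, Matrix.trace_add, trace_V0, trace_XP0 h.hg h.h3,
      trace_XM0 h.hg h.h3, h.trA, add_zero, sub_zero]
  · simp only [Prod.snd_sub, Prod.snd_add, Matrix.trace_sub, Matrix.trace_add, trace_V1, trace_XP1 h.hg h.h3,
      trace_XM1 h.hg h.h3, h.trB, add_zero, sub_zero]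

/-- C3 in matrix form: `q₀ a₀` is symmetric for `a = π₊ T v - v` -/
theorem GFrame.C3m (h : GFrame g X Y T ι q0 r0 q1 r1) (D : Fin 5 → F) :
    (XP0 g (TA q0 r0 D) (TB q1 r1 D) - V0 D)ᵀ * q0 = q0 * (XP0 g (TA q0 r0 D) (TB q1 r1 D) - V0 D) ∧
    (XP1 g (TA q0 r0 D) (TB q1 r1 D) - V1 D)ᵀ * q1 = q1 * (XP1 g (TA q0 r0 D) (TB q1 r1 D) - V1 D) := by
  have hX := h.X_v D
  have hYv := h.Y_v D
  have e := C3 h.rel hX hYv
  have hC := h.C1m D
  -- `T a = - a`
  have ea : T • (pP X Y • T • ι (V0 D, V1 D) - ι (V0 D, V1 D)) = - (pP X Y • T • ι (V0 D, V1 D) - ι (V0 D, V1 D)) := by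
    rw [smul_sub, e, h.pP_T, h.pM_T, h.T_v, ← map_sub, ← map_sub, ← map_neg]
    congr 1
    refine Prod.ext ?_ ?_
    · simp only [Prod.fst_sub, Prod.fst_neg]
      rw [← hC.1]; abel
    · simp only [Prod.snd_sub, Prod.snd_neg]
      rw [← hC.2]; abel
  rw [h.pP_T, ← map_sub, h.tq _ ?_ ?_, ← map_neg] at ea
  · have e3 := h.inj' ?_ ?_ ea
    · have e4 := congrArg Prod.fst e3
      have e5 := congrArg Prod.snd e3
      simp only [Prod.fst_sub, Prod.snd_sub, Prod.fst_neg, Prod.snd_neg, neg_inj] at e4 e5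
      have r0' : q0 * r0 = 1 := mul_eq_one_comm.mp h.rq0
      have r1' : q1 * r1 = 1 := mul_eq_one_comm.mp h.rq1
      refine ⟨?_, ?_⟩
      · conv_rhs => rw [← e4]
        rw [← Matrix.mul_assoc, ← Matrix.mul_assoc, r0', Matrix.one_mul]
      · conv_rhs => rw [← e5]
        rw [← Matrix.mul_assoc, ← Matrix.mul_assoc, r1', Matrix.one_mul]
    · simp only [Prod.fst_sub, Prod.fst_neg]
      rw [trace_conj h.rq0, Matrix.trace_neg, Matrix.trace_sub, trace_XP0 h.hg h.h3, trace_V0]; · simp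
      rw [Matrix.trace_transpose, Matrix.trace_sub, trace_XP0 h.hg h.h3, trace_V0]; simp
    · simp only [Prod.snd_sub, Prod.snd_neg]
      rw [trace_conj h.rq1, Matrix.trace_neg, Matrix.trace_sub, trace_XP1 h.hg h.h3, trace_V1]; · simp
      rw [Matrix.trace_transpose, Matrix.trace_sub, trace_XP1 h.hg h.h3, trace_V1]; simp
  · simp only [Prod.fst_sub, Matrix.trace_sub, trace_XP0 h.hg h.h3, trace_V0, sub_zero]
  · simp only [Prod.snd_sub, Matrix.trace_sub, trace_XP1 h.hg h.h3, trace_V1, sub_zero]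

end main
end Cfsg.Agent.H879.E83
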