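import Mathlib

/-!
# S5925: Hecke relations of `PSL₂(11) = ⟨x, y, t⟩` over `B = ⟨x, y⟩ = 11:5` in characteristic 3

`A` is a ring with `3 = 0` (the endomorphisms of a module over a field of characteristic 3), `X, Y, T : A` the images
of `x, y, t`: `x ^ 11 = 1`, `y ^ 5 = 1`, `t * t = 1`, `y * x = x ^ 3 * y`, `t * y = y⁻¹ * t`, `t * x * t = x⁻¹ * t * x⁻¹`.
`ey` is the projection on the fixed space of `y`, `ex` the projection on the fixed space of `x`, `pP = ey X ey`,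
`pM = ey X⁻¹ ey` are commuting idempotents with product `p0 = ex ey`, `ey = pP + pM - p0`.
-/

set_option autoImplicit false

namespace Cfsg.Agent.H879.E83

variable {A : Type*} [Ring A]

structure Rel (X Y T : A) : Prop where
  x11 : X ^ 11 = 1
  y5 : Y ^ 5 = 1
  tt : T * T = 1
  yx : Y * X = X ^ 3 * Y
  ty : T * Y = Y ^ 4 * T
  txt : T * X * T = X ^ 10 * T * X ^ 10
  three : (3 : A) = 0

def sY (Y : A) : A := 1 + Y + Y ^ 2 + Y ^ 3 + Y ^ 4
def sX (X : A) : A := 1 + X + X ^ 2 + X ^ 3 + X ^ 4 + X ^ 5 + X ^ 6 + X ^ 7 + X ^ 8 + X ^ 9 + X ^ 10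
def xR (X : A) : A := X + X ^ 3 + X ^ 4 + X ^ 5 + X ^ 9
def xN (X : A) : A := X ^ 2 + X ^ 6 + X ^ 7 + X ^ 8 + X ^ 10
def ey (Y : A) : A := - sY Y
def ex (X : A) : A := - sX X
def pP (X Y : A) : A := ey Y * X * ey Y
def pM (X Y : A) : A := ey Y * X ^ 10 * ey Y
def p0 (X Y : A) : A := ex X * ey Y

section
variable {X Y T : A}

theorem pow_red {Z : A} {n : ℕ} (h : Z ^ n = 1) (k : ℕ) : Z ^ (n + k) = Z ^ k := by
  rw [pow_add, h, one_mul]

theorem smul_three (h3 : (3 : A) = 0) (a : A) : (3 : ℕ) • a = 0 := by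
  have : (3 : ℕ) • a = (3 : A) * a := by
    rw [nsmul_eq_mul]; norm_num
  rw [this, h3, zero_mul]

theorem sY_mul_Y (h : Y ^ 5 = 1) : sY Y * Y = sY Y := by
  have h5 : Y ^ 4 * Y = 1 := by rw [← pow_succ, h]
  have h2 : Y * Y = Y ^ 2 := (sq Y).symm
  have h3 : Y ^ 2 * Y = Y ^ 3 := (pow_succ Y 2).symm
  have h4 : Y ^ 3 * Y = Y ^ 4 := (pow_succ Y 3).symm
  simp only [sY, add_mul, one_mul, h5, h2, h3, h4]
  abel

theorem Y_mul_sY (h : Y ^ 5 = 1) : Y * sY Y = sY Y := by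
  have h5 : Y * Y ^ 4 = 1 := by rw [← pow_succ', h]
  have h2 : Y * Y = Y ^ 2 := (sq Y).symm
  have h3 : Y * Y ^ 2 = Y ^ 3 := (pow_succ' Y 2).symm
  have h4 : Y * Y ^ 3 = Y ^ 4 := (pow_succ' Y 3).symm
  simp only [sY, mul_add, mul_one, h5, h2, h3, h4]
  abel

theorem Y_pow_mul_sY (h : Y ^ 5 = 1) (n : ℕ) : Y ^ n * sY Y = sY Y := by
  induction n with
  | zero => simp
  | succ n ih => rw [pow_succ, mul_assoc, Y_mul_sY h, ih]

theorem sY_mul_Y_pow (h : Y ^ 5 = 1) (n : ℕ) : sY Y * Y ^ n = sY Y := by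
  induction n with
  | zero => simp
  | succ n ih => rw [pow_succ, ← mul_assoc, ih, sY_mul_Y h]

theorem sX_mul_X (h : X ^ 11 = 1) : sX X * X = sX X := by
  have h10 : X ^ 10 * X = 1 := by rw [← pow_succ, h]
  simp only [sX, add_mul, one_mul, h10, ← pow_succ, Nat.reduceAdd, ← sq]
  abel

theorem X_mul_sX (h : X ^ 11 = 1) : X * sX X = sX X := by
  have h10 : X * X ^ 10 = 1 := by rw [← pow_succ', h]
  simp only [sX, mul_add, mul_one, h10, ← pow_succ', Nat.reduceAdd, ← sq]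
  abel

theorem X_pow_mul_sX (h : X ^ 11 = 1) (n : ℕ) : X ^ n * sX X = sX X := by
  induction n with
  | zero => simp
  | succ n ih => rw [pow_succ, mul_assoc, X_mul_sX h, ih]

theorem sX_mul_X_pow (h : X ^ 11 = 1) (n : ℕ) : sX X * X ^ n = sX X := by
  induction n with
  | zero => simp
  | succ n ih => rw [pow_succ, ← mul_assoc, ih, sX_mul_X h]

theorem sX_eq : sX X = 1 + xR X + xN X := by
  simp only [sX, xR, xN]; abel

theorem pow_fix {Y Z : A} (hZ : Y * Z = Z) (n : ℕ) : Y ^ n * Z = Z := by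
  induction n with
  | zero => simp
  | succ n ih => rw [pow_succ, mul_assoc, hZ, ih]

theorem sY_mul_of_fix {Z : A} (hZ : Y * Z = Z) : sY Y * Z = (5 : ℕ) • Z := by
  simp only [sY, add_mul, one_mul, hZ, pow_fix hZ]
  abel

theorem sX_mul_of_fix {Z : A} (hZ : X * Z = Z) : sX X * Z = (11 : ℕ) • Z := by
  simp only [sX, add_mul, one_mul, hZ, pow_fix hZ]
  abel

theorem five_smul (h3 : (3 : A) = 0) (a : A) : (5 : ℕ) • a = - a := by
  have h2 := smul_three h3 a
  have : (5 : ℕ) • a = (3 : ℕ) • a + (3 : ℕ) • a + - a := by abel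
  rw [this, h2]; simp

theorem eleven_smul (h3 : (3 : A) = 0) (a : A) : (11 : ℕ) • a = - a := by
  have h2 := smul_three h3 a
  have : (11 : ℕ) • a = (3 : ℕ) • a + (3 : ℕ) • a + (3 : ℕ) • a + (3 : ℕ) • a + - a := by abel
  rw [this, h2]; simp

theorem ey_mul_of_fix (h3 : (3 : A) = 0) {Z : A} (hZ : Y * Z = Z) : ey Y * Z = Z := by
  rw [ey, neg_mul, sY_mul_of_fix hZ, five_smul h3, neg_neg]

theorem ex_mul_of_fix (h3 : (3 : A) = 0) {Z : A} (hZ : X * Z = Z) : ex X * Z = Z := by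
  rw [ex, neg_mul, sX_mul_of_fix hZ, eleven_smul h3, neg_neg]

theorem Y_mul_ey (h : Rel X Y T) : Y * ey Y = ey Y := by
  rw [ey, mul_neg, Y_mul_sY h.y5]

theorem ey_mul_Y (h : Rel X Y T) : ey Y * Y = ey Y := by
  rw [ey, neg_mul, sY_mul_Y h.y5]

theorem X_mul_ex (h : Rel X Y T) : X * ex X = ex X := by
  rw [ex, mul_neg, X_mul_sX h.x11]

theorem ex_mul_X (h : Rel X Y T) : ex X * X = ex X := by
  rw [ex, neg_mul, sX_mul_X h.x11]

theorem ey_mul_ey (h : Rel X Y T) : ey Y * ey Y = ey Y := ey_mul_of_fix h.three (Y_mul_ey h)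

theorem ex_mul_ex (h : Rel X Y T) : ex X * ex X = ex X := ex_mul_of_fix h.three (X_mul_ex h)

/-- `Y ^ i * X = X ^ (3 ^ i) * Y ^ i`, reduced -/
theorem yx1 (h : Rel X Y T) (n : ℕ) : Y * X ^ n = X ^ (3 * n) * Y := by
  induction n with
  | zero => simp
  | succ n ih =>
    rw [pow_succ, ← mul_assoc, ih, mul_assoc, h.yx, ← mul_assoc, ← pow_add]
    ring_nf

theorem yx2 (h : Rel X Y T) (i n : ℕ) : Y ^ i * X ^ n = X ^ (3 ^ i * n) * Y ^ i := by
  induction i generalizing n with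
  | zero => simp
  | succ i ih =>
    rw [pow_succ, mul_assoc, yx1 h, ← mul_assoc, ih, mul_assoc, ← pow_succ]
    congr 2
    ring

theorem X_mod (h : Rel X Y T) (n : ℕ) : X ^ n = X ^ (n % 11) := by
  conv_lhs => rw [← Nat.div_add_mod n 11]
  rw [pow_add, pow_mul, h.x11, one_pow, one_mul]

theorem sY_X (h : Rel X Y T) : sY Y * X * sY Y = xR X * sY Y := by
  have e1 : Y * X = X ^ 3 * Y := h.yx
  have e2 : Y ^ 2 * X = X ^ 9 * Y ^ 2 := by simpa using yx2 h 2 1
  have e3 : Y ^ 3 * X = X ^ 5 * Y ^ 3 := by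
    have := yx2 h 3 1
    rw [X_mod h (3 ^ 3 * 1)] at this; simpa using this
  have e4 : Y ^ 4 * X = X ^ 4 * Y ^ 4 := by
    have := yx2 h 4 1
    rw [X_mod h (3 ^ 4 * 1)] at this; simpa using this
  have hY := Y_mul_sY h.y5
  have hY2 := fun n => Y_pow_mul_sY h.y5 n
  generalize hs : sY Y = s at hY hY2 ⊢
  rw [← hs, sY]
  simp only [add_mul, one_mul, e1, e2, e3, e4, mul_assoc]
  rw [← sY, hs]
  simp only [hY, hY2, xR, add_mul]
  abel

theorem sY_X10 (h : Rel X Y T) : sY Y * X ^ 10 * sY Y = xN X * sY Y := by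
  have e1 : Y * X ^ 10 = X ^ 8 * Y := by
    have := yx2 h 1 10
    rw [X_mod h (3 ^ 1 * 10)] at this; simpa using this
  have e2 : Y ^ 2 * X ^ 10 = X ^ 2 * Y ^ 2 := by
    have := yx2 h 2 10
    rw [X_mod h (3 ^ 2 * 10)] at this; simpa using this
  have e3 : Y ^ 3 * X ^ 10 = X ^ 6 * Y ^ 3 := by
    have := yx2 h 3 10
    rw [X_mod h (3 ^ 3 * 10)] at this; simpa using this
  have e4 : Y ^ 4 * X ^ 10 = X ^ 7 * Y ^ 4 := by
    have := yx2 h 4 10
    rw [X_mod h (3 ^ 4 * 10)] at this; simpa using this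
  have hY := Y_mul_sY h.y5
  have hY2 := fun n => Y_pow_mul_sY h.y5 n
  generalize hs : sY Y = s at hY hY2 ⊢
  rw [← hs, sY]
  simp only [add_mul, one_mul, e1, e2, e3, e4, mul_assoc]
  rw [← sY, hs]
  simp only [hY, hY2, xN, add_mul]
  abel

theorem pP_eq (h : Rel X Y T) : pP X Y = - (xR X * ey Y) := by
  simp only [pP, ey, mul_neg, neg_mul, neg_neg]
  exact sY_X h

theorem pM_eq (h : Rel X Y T) : pM X Y = - (xN X * ey Y) := by
  simp only [pM, ey, mul_neg, neg_mul, neg_neg]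
  exact sY_X10 h


theorem hmul (h : Rel X Y T) (m n : ℕ) : X ^ m * X ^ n = X ^ ((m + n) % 11) := by
  rw [← pow_add, X_mod h]

theorem hl (h : Rel X Y T) (n : ℕ) : X * X ^ n = X ^ ((n + 1) % 11) := by
  rw [← pow_succ', X_mod h]

theorem hr (h : Rel X Y T) (n : ℕ) : X ^ n * X = X ^ ((n + 1) % 11) := by
  rw [← pow_succ, X_mod h]

theorem two_smul' (h3 : (3 : A) = 0) (a : A) : (2 : ℕ) • a = - a := by
  have h2 := smul_three h3 a
  have : (2 : ℕ) • a = (3 : ℕ) • a + - a := by abel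
  rw [this, h2, zero_add]

theorem xR_mul_xR (h : Rel X Y T) : xR X * xR X = - xR X := by
  have e : xR X * xR X = (2 : ℕ) • xR X + (3 : ℕ) • xN X := by
    simp only [xR, xN, mul_add, add_mul, hmul h, hl h, hr h, (sq X).symm, Nat.reduceAdd, Nat.reduceMod, pow_one]
    abel
  rw [e, smul_three h.three, add_zero, two_smul' h.three]

theorem xN_mul_xN (h : Rel X Y T) : xN X * xN X = - xN X := by
  have e : xN X * xN X = (2 : ℕ) • xN X + (3 : ℕ) • xR X := by
    simp only [xR, xN, mul_add, add_mul, hmul h, Nat.reduceAdd, Nat.reduceMod, pow_one]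
    abel
  rw [e, smul_three h.three, add_zero, two_smul' h.three]

theorem xR_mul_xN (h : Rel X Y T) : xR X * xN X = - sX X := by
  have e : xR X * xN X = (3 : ℕ) • 1 + (2 : ℕ) • sX X := by
    rw [sX_eq]
    simp only [xR, xN, mul_add, add_mul, hmul h, hl h, Nat.reduceAdd, Nat.reduceMod, pow_one, pow_zero]
    abel
  rw [e, smul_three h.three, zero_add, two_smul' h.three]

theorem xN_mul_xR (h : Rel X Y T) : xN X * xR X = - sX X := by
  have e : xN X * xR X = (3 : ℕ) • 1 + (2 : ℕ) • sX X := by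
    rw [sX_eq]
    simp only [xR, xN, mul_add, add_mul, hmul h, hr h, Nat.reduceAdd, Nat.reduceMod, pow_one, pow_zero]
    abel
  rw [e, smul_three h.three, zero_add, two_smul' h.three]

theorem Y_mul_X_pow (h : Rel X Y T) (n : ℕ) : Y * X ^ n = X ^ ((3 * n) % 11) * Y := by
  rw [yx1 h, X_mod h]

theorem Y_mul_xR (h : Rel X Y T) : Y * xR X = xR X * Y := by
  simp only [xR, mul_add, add_mul, h.yx, Y_mul_X_pow h, Nat.reduceMul, Nat.reduceMod, pow_one]
  abel

theorem Y_mul_xN (h : Rel X Y T) : Y * xN X = xN X * Y := by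
  simp only [xN, mul_add, add_mul, Y_mul_X_pow h, Nat.reduceMul, Nat.reduceMod]
  abel

theorem ey_comm {Z : A} (hZ : Y * Z = Z * Y) : ey Y * Z = Z * ey Y := by
  have hc : Commute Y Z := hZ
  have : Commute (ey Y) Z := by
    unfold ey sY
    refine Commute.neg_left ?_
    refine ((((Commute.one_left Z).add_left hc).add_left ?_).add_left ?_).add_left ?_
    · exact hc.pow_left 2
    · exact hc.pow_left 3
    · exact hc.pow_left 4
  exact this

theorem ey_mul_xR (h : Rel X Y T) : ey Y * xR X = xR X * ey Y := ey_comm (Y_mul_xR h)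
theorem ey_mul_xN (h : Rel X Y T) : ey Y * xN X = xN X * ey Y := ey_comm (Y_mul_xN h)
theorem ey_mul_ex (h : Rel X Y T) : ey Y * ex X = ex X * ey Y := by
  refine ey_comm ?_
  rw [ex, sX_eq, mul_neg, neg_mul, mul_add, mul_add, add_mul, add_mul, Y_mul_xR h, Y_mul_xN h, mul_one, one_mul]

theorem pP_mul_pP (h : Rel X Y T) : pP X Y * pP X Y = pP X Y := by
  rw [pP_eq h, neg_mul_neg]
  calc xR X * ey Y * (xR X * ey Y) = xR X * (ey Y * xR X) * ey Y := by noncomm_ring
    _ = (xR X * xR X) * (ey Y * ey Y) := by rw [ey_mul_xR h]; noncomm_ring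
    _ = _ := by rw [xR_mul_xR h, ey_mul_ey h, neg_mul]

theorem pM_mul_pM (h : Rel X Y T) : pM X Y * pM X Y = pM X Y := by
  rw [pM_eq h, neg_mul_neg]
  calc xN X * ey Y * (xN X * ey Y) = xN X * (ey Y * xN X) * ey Y := by noncomm_ring
    _ = (xN X * xN X) * (ey Y * ey Y) := by rw [ey_mul_xN h]; noncomm_ring
    _ = _ := by rw [xN_mul_xN h, ey_mul_ey h, neg_mul]

theorem pP_mul_pM (h : Rel X Y T) : pP X Y * pM X Y = p0 X Y := by
  rw [pP_eq h, pM_eq h, neg_mul_neg]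
  calc xR X * ey Y * (xN X * ey Y) = xR X * (ey Y * xN X) * ey Y := by noncomm_ring
    _ = (xR X * xN X) * (ey Y * ey Y) := by rw [ey_mul_xN h]; noncomm_ring
    _ = _ := by rw [xR_mul_xN h, ey_mul_ey h, p0, ex]

theorem pM_mul_pP (h : Rel X Y T) : pM X Y * pP X Y = p0 X Y := by
  rw [pP_eq h, pM_eq h, neg_mul_neg]
  calc xN X * ey Y * (xR X * ey Y) = xN X * (ey Y * xR X) * ey Y := by noncomm_ring
    _ = (xN X * xR X) * (ey Y * ey Y) := by rw [ey_mul_xR h]; noncomm_ring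
    _ = _ := by rw [xN_mul_xR h, ey_mul_ey h, p0, ex]

/-- the three projections -/
theorem ey_eq (h : Rel X Y T) : ey Y = pP X Y + pM X Y - p0 X Y := by
  rw [pP_eq h, pM_eq h, p0, ex, sX_eq]
  noncomm_ring

theorem X_mul_p0 (h : Rel X Y T) : X * p0 X Y = p0 X Y := by
  rw [p0, ← mul_assoc, X_mul_ex h]

theorem Y_mul_p0 (h : Rel X Y T) : Y * p0 X Y = p0 X Y := by
  rw [p0, ← ey_mul_ex h, ← mul_assoc, Y_mul_ey h]

theorem YT (h : Rel X Y T) : Y * T = T * Y ^ 4 := by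
  have h1 : T * Y * T = Y ^ 4 := by rw [h.ty, mul_assoc, h.tt, mul_one]
  have h2 : T * Y ^ 4 * T = Y := by
    have e : T * Y ^ 4 * T = (T * Y * T) ^ 4 := by
      have : ∀ n : ℕ, (T * Y * T) ^ n = T * Y ^ n * T := by
        intro n
        induction n with
        | zero => rw [pow_zero, pow_zero, mul_one, h.tt]
        | succ n ih =>
          rw [pow_succ, ih, pow_succ]
          calc T * Y ^ n * T * (T * Y * T) = T * Y ^ n * (T * T) * Y * T := by noncomm_ring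
            _ = _ := by rw [h.tt]; noncomm_ring
      rw [this]
    rw [e, h1, ← pow_mul]
    have : Y ^ (4 * 4) = (Y ^ 5) ^ 3 * Y := by rw [← pow_mul, ← pow_succ]
    rw [this, h.y5, one_pow, one_mul]
  calc Y * T = (T * Y ^ 4 * T) * T := by rw [h2]
    _ = T * Y ^ 4 * (T * T) := by noncomm_ring
    _ = _ := by rw [h.tt, mul_one]

theorem Y_mod (h : Rel X Y T) (n : ℕ) : Y ^ n = Y ^ (n % 5) := by
  conv_lhs => rw [← Nat.div_add_mod n 5]
  rw [pow_add, pow_mul, h.y5, one_pow, one_mul]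

theorem TY_pow (h : Rel X Y T) (n : ℕ) : T * Y ^ n = Y ^ ((4 * n) % 5) * T := by
  rw [← Y_mod h]
  induction n with
  | zero => simp
  | succ n ih => rw [pow_succ, ← mul_assoc, ih, mul_assoc, h.ty, ← mul_assoc, ← pow_add]; ring_nf

theorem YT_pow (h : Rel X Y T) (n : ℕ) : Y ^ n * T = T * Y ^ ((4 * n) % 5) := by
  rw [TY_pow h, Y_mod h n]
  congr 2
  omega

theorem T_mul_ey (h : Rel X Y T) : T * ey Y = ey Y * T := by
  simp only [ey, sY, mul_neg, neg_mul, mul_add, add_mul, mul_one, one_mul, TY_pow h, h.ty, Nat.reduceMul,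
    Nat.reduceMod, pow_one]
  abel

/-- `t x^i t` in terms of `x^{-1/i}`: `T X^(3^k) T = Y^k T X T Y^(-k)`, as `X`-powers and `Y`-powers -/
theorem X3 (h : Rel X Y T) : X ^ 3 = Y * X * Y ^ 4 := by
  rw [h.yx, mul_assoc, ← pow_succ', h.y5, mul_one]

end

/-! ## on a module -/
section mod
variable {M : Type*} [AddCommGroup M] [Module A M] {X Y T : A}

theorem pow_smul_fix {Z : A} {v : M} (hv : Z • v = v) (n : ℕ) : Z ^ n • v = v := by
  induction n with
  | zero => simp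
  | succ n ih => rw [pow_succ, mul_smul, hv, ih]

theorem Y_T (h : Rel X Y T) {v : M} (hy : Y • v = v) : Y • T • v = T • v := by
  rw [← mul_smul, YT h, mul_smul, pow_smul_fix hy]

theorem ey_of_fix (h : Rel X Y T) {v : M} (hy : Y • v = v) : ey Y • v = v := by
  have h3 : (3 : ℕ) • v = 0 := by
    have : (3 : ℕ) • v = (3 : A) • v := by
      rw [← Nat.cast_smul_eq_nsmul A]; norm_num
    rw [this, h.three, zero_smul]
  have e : ey Y • v = - ((5 : ℕ) • v) := by
    simp only [ey, sY, neg_smul, add_smul, one_smul, hy, pow_smul_fix hy]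
    abel
  have e2 : (5 : ℕ) • v = (3 : ℕ) • v + (3 : ℕ) • v + - v := by abel
  rw [e, e2, h3]; simp

theorem ex_of_fix (h : Rel X Y T) {v : M} (hx : X • v = v) : ex X • v = v := by
  have h3 : (3 : ℕ) • v = 0 := by
    have : (3 : ℕ) • v = (3 : A) • v := by
      rw [← Nat.cast_smul_eq_nsmul A]; norm_num
    rw [this, h.three, zero_smul]
  have e : ex X • v = - ((11 : ℕ) • v) := by
    simp only [ex, sX, neg_smul, add_smul, one_smul, hx, pow_smul_fix hx]
    abel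
  have e2 : (11 : ℕ) • v = (3 : ℕ) • v + (3 : ℕ) • v + (3 : ℕ) • v + (3 : ℕ) • v + - v := by abel
  rw [e, e2, h3]; simp

theorem fix_of_ey (h : Rel X Y T) {v : M} (hy : ey Y • v = v) : Y • v = v := by
  conv_lhs => rw [← hy]
  rw [← mul_smul, Y_mul_ey h, hy]

/-- (C3): `t π₊ t v = π₋ t v` for `v` fixed by `B` -/
theorem C3 (h : Rel X Y T) {v : M} (hx : X • v = v) (hy : Y • v = v) :
    T • pP X Y • T • v = pM X Y • T • v := by
  have hTy : Y • T • v = T • v := Y_T h hy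
  have e1 : ey Y • T • v = T • v := ey_of_fix h hTy
  have e2 : pP X Y • T • v = ey Y • X • T • v := by
    rw [pP, mul_smul, mul_smul, e1]
  have e3 : pM X Y • T • v = ey Y • X ^ 10 • T • v := by
    rw [pM, mul_smul, mul_smul, e1]
  have e4 : T * ey Y = ey Y * T := T_mul_ey h
  rw [e2, e3, ← mul_smul T, e4, mul_smul]
  congr 1
  rw [← mul_smul X, ← mul_smul T, ← mul_assoc, h.txt, mul_smul, mul_smul, pow_smul_fix hx]

theorem T_X_T (h : Rel X Y T) (k : ℕ) : T * X ^ (3 ^ k) * T = Y ^ ((4 * k) % 5) * (X ^ 10 * T * X ^ 10) * Y ^ (k % 5) := by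
  have e : X ^ (3 ^ k) = Y ^ k * X * Y ^ ((4 * k) % 5) := by
    have := yx2 h k 1
    rw [pow_one, mul_one] at this
    rw [this, mul_assoc, ← Y_mod h, ← pow_add]
    have e5 : k + 4 * k = 5 * k := by ring
    rw [e5, pow_mul, h.y5, one_pow, mul_one]
  have e1 : T * Y ^ k = Y ^ ((4 * k) % 5) * T := TY_pow h k
  have e2 : Y ^ ((4 * k) % 5) * T = T * Y ^ (k % 5) := by
    rw [YT_pow h]; congr 2; omega
  calc T * X ^ (3 ^ k) * T = (T * Y ^ k) * X * (Y ^ ((4 * k) % 5) * T) := by rw [e]; noncomm_ring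
    _ = Y ^ ((4 * k) % 5) * (T * X * T) * Y ^ (k % 5) := by rw [e1]; nth_rewrite 2 [e2]; simp only [mul_assoc]
    _ = _ := by rw [h.txt]

/-- the image of `T v` under `T X^(3^k)` -/
theorem T_Xr (h : Rel X Y T) {v : M} (hx : X • v = v) (hy : Y • v = v) (k : ℕ) :
    T • X ^ (3 ^ k) • T • v = X ^ ((10 * 3 ^ (4 * k)) % 11) • T • v := by
  have e1 : T • X ^ (3 ^ k) • T • v = (T * X ^ (3 ^ k) * T) • v := by
    rw [mul_smul, mul_smul]
  rw [e1, T_X_T h, mul_smul, pow_smul_fix hy, mul_smul, mul_smul, mul_smul, pow_smul_fix hx]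
  have hTy : Y • T • v = T • v := Y_T h hy
  rw [← mul_smul, ← Y_mod h, yx2 h, mul_smul, pow_smul_fix hTy, X_mod h, mul_comm (3 ^ (4 * k))]

theorem T_Xn (h : Rel X Y T) {v : M} (hx : X • v = v) (hy : Y • v = v) (k : ℕ) :
    T • X ^ ((10 * 3 ^ (4 * k)) % 11) • T • v = X ^ (3 ^ k) • T • v := by
  rw [← T_Xr h hx hy k, ← mul_smul, h.tt, one_smul]

/-- the sum over the twelve conjugates of `B` is fixed by `T` -/
theorem T_sum (h : Rel X Y T) {v : M} (hx : X • v = v) (hy : Y • v = v) :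
    T • (v + sX X • T • v) = v + sX X • T • v := by
  have r0 := T_Xr h hx hy 0
  have r1 := T_Xr h hx hy 1
  have r2 := T_Xr h hx hy 2
  have r3 := T_Xr h hx hy 3
  have r4 := T_Xr h hx hy 4
  have n0 := T_Xn h hx hy 0
  have n1 := T_Xn h hx hy 1
  have n2 := T_Xn h hx hy 2
  have n3 := T_Xn h hx hy 3
  have n4 := T_Xn h hx hy 4
  rw [X_mod h (3 ^ _)] at r0 r1 r2 r3 r4
  rw [X_mod h (3 ^ _)] at n0 n1 n2 n3 n4
  norm_num at r0 r1 r2 r3 r4 n0 n1 n2 n3 n4
  have t0 : T • T • v = v := by rw [← mul_smul, h.tt, one_smul]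
  simp only [sX, add_smul, one_smul, smul_add, t0, r0, r1, r2, r3, r4, n0, n1, n2, n3, n4]
  abel

/-- (C1) if `⟨X, Y, T⟩` has no nonzero fixed vector: the sum over the conjugates of `v` vanishes -/
theorem sum_zero (h : Rel X Y T) (hinv : ∀ w : M, X • w = w → Y • w = w → T • w = w → w = 0) {v : M} (hx : X • v = v)
    (hy : Y • v = v) : v + sX X • T • v = 0 := by
  have hTy : Y • T • v = T • v := Y_T h hy
  refine hinv _ ?_ ?_ (T_sum h hx hy)
  · rw [smul_add, hx, ← mul_smul, X_mul_sX h.x11]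
  · rw [smul_add, hy, ← mul_smul, sX_eq, mul_add, mul_add, Y_mul_xR h, Y_mul_xN h, mul_one]
    simp only [add_smul, mul_smul, hTy, one_smul]

/-- (C1) `π₀ t v = v` -/
theorem C1 (h : Rel X Y T) (hinv : ∀ w : M, X • w = w → Y • w = w → T • w = w → w = 0) {v : M} (hx : X • v = v)
    (hy : Y • v = v) : p0 X Y • T • v = v := by
  have hTy : Y • T • v = T • v := Y_T h hy
  have e := sum_zero h hinv hx hy
  rw [p0, mul_smul, ey_of_fix h hTy, ex, neg_smul, eq_comm, ← sub_eq_zero, sub_neg_eq_add, e]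

/-- the decomposition `t v = v + a + b` for `v` fixed by `B`: `a = π₊ t v - v`, `b = π₋ t v - v` -/
theorem T_eq (h : Rel X Y T) (hinv : ∀ w : M, X • w = w → Y • w = w → T • w = w → w = 0) {v : M} (hx : X • v = v)
    (hy : Y • v = v) : T • v = v + (pP X Y • T • v - v) + (pM X Y • T • v - v) := by
  have hTy : Y • T • v = T • v := Y_T h hy
  have e1 : ey Y • T • v = T • v := ey_of_fix h hTy
  have e2 := C1 h hinv hx hy
  conv_lhs => rw [← e1, ey_eq h, sub_smul, add_smul, e2]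
  abel

/-- `t a = - a` -/
theorem T_a (h : Rel X Y T) (hinv : ∀ w : M, X • w = w → Y • w = w → T • w = w → w = 0) {v : M} (hx : X • v = v)
    (hy : Y • v = v) : T • (pP X Y • T • v - v) = - (pP X Y • T • v - v) := by
  have e := T_eq h hinv hx hy
  rw [smul_sub, C3 h hx hy]
  exact (congrArg (fun z => pM X Y • T • v - z) e).trans (by abel)

theorem T_b (h : Rel X Y T) (hinv : ∀ w : M, X • w = w → Y • w = w → T • w = w → w = 0) {v : M} (hx : X • v = v)
    (hy : Y • v = v) : T • (pM X Y • T • v - v) = - (pM X Y • T • v - v) := by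
  have e := T_eq h hinv hx hy
  have e2 : T • pM X Y • T • v = pP X Y • T • v := by
    rw [← C3 h hx hy, ← mul_smul, h.tt, one_smul]
  rw [smul_sub, e2]
  exact (congrArg (fun z => pP X Y • T • v - z) e).trans (by abel)

theorem pP_of_fix (h : Rel X Y T) {v : M} (hx : X • v = v) (hy : Y • v = v) : pP X Y • v = v := by
  rw [pP, mul_smul, mul_smul, ey_of_fix h hy, hx, ey_of_fix h hy]

theorem pM_of_fix (h : Rel X Y T) {v : M} (hx : X • v = v) (hy : Y • v = v) : pM X Y • v = v := by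
  rw [pM, mul_smul, mul_smul, ey_of_fix h hy, pow_smul_fix hx, ey_of_fix h hy]

/-- `a` is in `ker π₋`, `im π₊` -/
theorem pM_a (h : Rel X Y T) (hinv : ∀ w : M, X • w = w → Y • w = w → T • w = w → w = 0) {v : M} (hx : X • v = v)
    (hy : Y • v = v) : pM X Y • (pP X Y • T • v - v) = 0 := by
  rw [smul_sub, ← mul_smul, pM_mul_pP h, C1 h hinv hx hy, pM_of_fix h hx hy, sub_self]

theorem pP_b (h : Rel X Y T) (hinv : ∀ w : M, X • w = w → Y • w = w → T • w = w → w = 0) {v : M} (hx : X • v = v)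
    (hy : Y • v = v) : pP X Y • (pM X Y • T • v - v) = 0 := by
  rw [smul_sub, ← mul_smul, pP_mul_pM h, C1 h hinv hx hy, pP_of_fix h hx hy, sub_self]

end mod

/-! ## traces -/
section trace
variable {R : Type*} [AddCommGroup R] {X Y T : A}

theorem ey_mul_p0 (h : Rel X Y T) : ey Y * p0 X Y = p0 X Y := by
  rw [p0, ← ey_mul_ex h, ← mul_assoc, ey_mul_ey h]

theorem p0_mul_ey (h : Rel X Y T) : p0 X Y * ey Y = p0 X Y := by
  rw [p0, mul_assoc, ey_mul_ey h]

theorem p0_mul_X (h : Rel X Y T) : p0 X Y * X = p0 X Y := by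
  rw [p0, ← ey_mul_ex h, mul_assoc, ex_mul_X h]

theorem mul_X_pow {Z : A} (hZ : Z * X = Z) (n : ℕ) : Z * X ^ n = Z := by
  induction n with
  | zero => simp
  | succ n ih => rw [pow_succ, ← mul_assoc, ih, hZ]

theorem T_X10_T (h : Rel X Y T) : T * X ^ 10 * T = X * T * X := by
  have e : (T * X ^ 10 * T) * (T * X * T) = 1 := by
    calc (T * X ^ 10 * T) * (T * X * T) = T * X ^ 10 * (T * T) * X * T := by noncomm_ring
      _ = T * (X ^ 10 * X) * T := by rw [h.tt]; noncomm_ring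
      _ = 1 := by rw [← pow_succ, h.x11, mul_one, h.tt]
  have e2 : (T * X * T) * (X * T * X) = 1 := by
    rw [h.txt]
    calc X ^ 10 * T * X ^ 10 * (X * T * X) = X ^ 10 * T * (X ^ 10 * X) * T * X := by noncomm_ring
      _ = X ^ 10 * (T * T) * X := by rw [← pow_succ, h.x11]; noncomm_ring
      _ = 1 := by rw [h.tt, mul_one, ← pow_succ, h.x11]
  calc T * X ^ 10 * T = T * X ^ 10 * T * ((T * X * T) * (X * T * X)) := by rw [e2, mul_one]
    _ = ((T * X ^ 10 * T) * (T * X * T)) * (X * T * X) := by noncomm_ring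
    _ = _ := by rw [e, one_mul]

theorem tr_pP_T (h : Rel X Y T) (τ : A →+ R) (hτ : ∀ a b, τ (a * b) = τ (b * a)) :
    τ (pP X Y * T) = - τ (X * T * sY Y) := by
  have e : pP X Y * T = ey Y * (X * T * ey Y) := by
    rw [pP]; simp only [mul_assoc]; rw [T_mul_ey h]
  rw [e, hτ, mul_assoc, ey_mul_ey h, ey, mul_neg, map_neg]

theorem tr_pM_T (h : Rel X Y T) (τ : A →+ R) (hτ : ∀ a b, τ (a * b) = τ (b * a)) :
    τ (pM X Y * T) = - τ (X ^ 10 * T * sY Y) := by
  have e : pM X Y * T = ey Y * (X ^ 10 * T * ey Y) := by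
    rw [pM]; simp only [mul_assoc]; rw [T_mul_ey h]
  rw [e, hτ, mul_assoc, ey_mul_ey h, ey, mul_neg, map_neg]

theorem tr_p0_T (_h : Rel X Y T) (τ : A →+ R) : τ (p0 X Y * T) = τ (sX X * sY Y * T) := by
  rw [p0, ex, ey, neg_mul_neg]

theorem tr_p0_T_pP_T (h : Rel X Y T) (τ : A →+ R) (hτ : ∀ a b, τ (a * b) = τ (b * a)) :
    τ (p0 X Y * T * pP X Y * T) = τ (p0 X Y * T) := by
  have e : p0 X Y * T * pP X Y * T = p0 X Y * (T * X * T) * ey Y := by
    rw [pP]
    have t := T_mul_ey h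
    calc p0 X Y * T * (ey Y * X * ey Y) * T = p0 X Y * (T * ey Y) * X * (ey Y * T) := by noncomm_ring
      _ = p0 X Y * (ey Y * T) * X * (T * ey Y) := by rw [t]
      _ = (p0 X Y * ey Y) * (T * X * T) * ey Y := by noncomm_ring
      _ = _ := by rw [p0_mul_ey h]
  rw [e, hτ, ← mul_assoc, ey_mul_p0 h, h.txt, ← mul_assoc, ← mul_assoc, mul_X_pow (p0_mul_X h), hτ, ← mul_assoc,
    pow_fix (X_mul_p0 h)]

theorem pP_T_pP_T (h : Rel X Y T) : pP X Y * T * pP X Y * T = (ey Y * X * ey Y * X ^ 10 * T * X ^ 10) * ey Y := by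
  have t := T_mul_ey h
  calc pP X Y * T * pP X Y * T = ey Y * X * (ey Y * (T * ey Y)) * X * (ey Y * T) := by rw [pP]; noncomm_ring
    _ = ey Y * X * (ey Y * (ey Y * T)) * X * (T * ey Y) := by rw [t]
    _ = ey Y * X * (ey Y * ey Y) * (T * X * T) * ey Y := by noncomm_ring
    _ = _ := by rw [ey_mul_ey h, h.txt]; noncomm_ring

theorem pM_T_pM_T (h : Rel X Y T) : pM X Y * T * pM X Y * T = (ey Y * X ^ 10 * ey Y * X * T * X) * ey Y := by
  have t := T_mul_ey h
  calc pM X Y * T * pM X Y * T = ey Y * X ^ 10 * (ey Y * (T * ey Y)) * X ^ 10 * (ey Y * T) := by rw [pM]; noncomm_ring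
    _ = ey Y * X ^ 10 * (ey Y * (ey Y * T)) * X ^ 10 * (T * ey Y) := by rw [t]
    _ = ey Y * X ^ 10 * (ey Y * ey Y) * (T * X ^ 10 * T) * ey Y := by noncomm_ring
    _ = _ := by rw [ey_mul_ey h, T_X10_T h]; noncomm_ring

theorem pP_T_pM_T (h : Rel X Y T) : pP X Y * T * pM X Y * T = (ey Y * X * ey Y * X * T * X) * ey Y := by
  have t := T_mul_ey h
  calc pP X Y * T * pM X Y * T = ey Y * X * (ey Y * (T * ey Y)) * X ^ 10 * (ey Y * T) := by rw [pP, pM]; noncomm_ring
    _ = ey Y * X * (ey Y * (ey Y * T)) * X ^ 10 * (T * ey Y) := by rw [t]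
    _ = ey Y * X * (ey Y * ey Y) * (T * X ^ 10 * T) * ey Y := by noncomm_ring
    _ = _ := by rw [ey_mul_ey h, T_X10_T h]; noncomm_ring

theorem tr_pP_T_pP_T (h : Rel X Y T) (τ : A →+ R) (hτ : ∀ a b, τ (a * b) = τ (b * a)) :
    τ (pP X Y * T * pP X Y * T) = τ (sY Y * X * sY Y * X ^ 10 * T * X ^ 10) := by
  rw [pP_T_pP_T h, hτ]
  simp only [← mul_assoc, ey_mul_ey h]
  simp only [ey, neg_mul, mul_neg, neg_neg]

theorem tr_pM_T_pM_T (h : Rel X Y T) (τ : A →+ R) (hτ : ∀ a b, τ (a * b) = τ (b * a)) :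
    τ (pM X Y * T * pM X Y * T) = τ (sY Y * X ^ 10 * sY Y * X * T * X) := by
  rw [pM_T_pM_T h, hτ]
  simp only [← mul_assoc, ey_mul_ey h]
  simp only [ey, neg_mul, mul_neg, neg_neg]

theorem tr_pP_T_pM_T (h : Rel X Y T) (τ : A →+ R) (hτ : ∀ a b, τ (a * b) = τ (b * a)) :
    τ (pP X Y * T * pM X Y * T) = τ (sY Y * X * sY Y * X * T * X) := by
  rw [pP_T_pM_T h, hτ]
  simp only [← mul_assoc, ey_mul_ey h]
  simp only [ey, neg_mul, mul_neg, neg_neg]

end trace

/-! ## from a group representation -/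
section rep
variable {F G M : Type*} [Field F] [CharP F 3] [Group G] [AddCommGroup M] [Module F M]

theorem Rel.of_rep (ρ : Representation F G M) {x y t : G} (hx : x ^ 11 = 1) (hy : y ^ 5 = 1) (ht : t * t = 1)
    (hyx : y * x = x ^ 3 * y) (hty : t * y * t = y⁻¹) (hxt : (x * t) ^ 3 = 1) : Rel (ρ x) (ρ y) (ρ t) where
  x11 := by rw [← map_pow, hx, map_one]
  y5 := by rw [← map_pow, hy, map_one]
  tt := by rw [← map_mul, ht, map_one]
  yx := by rw [← map_mul, hyx, map_mul, map_pow]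
  ty := by
    have e : t * y = y ^ 4 * t := by
      have : y⁻¹ = y ^ 4 := inv_eq_of_mul_eq_one_right (by rw [← pow_succ', hy])
      rw [← this, ← hty, mul_assoc, ht, mul_one]
    rw [← map_mul, e, map_mul, map_pow]
  txt := by
    have e : t * x * t = x ^ 10 * t * x ^ 10 := by
      have hi : x ^ 10 = x⁻¹ := (inv_eq_of_mul_eq_one_right (by rw [← pow_succ', hx])).symm
      have h3 : x * t * (x * t) * (x * t) = 1 := by rw [← hxt, pow_succ, sq]
      have ht' : t⁻¹ = t := inv_eq_of_mul_eq_one_left ht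
      rw [hi]
      calc t * x * t = x⁻¹ * (x * t * (x * t) * (x * t)) * t⁻¹ * x⁻¹ := by group
        _ = x⁻¹ * t * x⁻¹ := by rw [h3, ht', mul_one]
    rw [← map_mul, ← map_mul, e, map_mul, map_mul, map_pow]
  three := by
    have h3 : (3 : F) = 0 := by exact_mod_cast CharP.cast_eq_zero F 3
    have e : (3 : Module.End F M) = algebraMap F (Module.End F M) 3 := (map_ofNat (algebraMap F (Module.End F M)) 3).symm
    rw [e, h3, map_zero]

end rep

end Cfsg.Agent.H879.E83
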