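import Cfsg.Agent.H879.E83.PForm

/-!
# S5925, box G3: the input of the kernel search

`Mh q` = the hermitian inverse, `Q2 q` = the matrix on `W₁` (conventions of helper136 / helper138).
-/

set_option autoImplicit false
set_option linter.style.longLine false

namespace Cfsg.Agent.H879.E83
open Matrix

section
variable {F : Type*} [Field F]

def sgm (a : Fin 5) : Fin 5 := 2 - a
def Jv : Fin 5 → F := ![1, 1, 1, -1, -1]
def Sv : Fin 5 → F := ![1, -1, 1, -1, -1]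

/-- `Mh q a b = J a J b (q (σ a) (σ b)) ^ 9` -/
def Mh (q : Mt F) : Mt F := fun a b => Jv a * Jv b * q (sgm a) (sgm b) ^ 9

/-- `Q2 q (3 a) (3 b) = S a S b (q a b) ^ 3` (`2 * 3 = 1` in `Fin 5`) -/
def Q2 (q : Mt F) : Mt F := fun a b => Sv (2 * a) * Sv (2 * b) * q (2 * a) (2 * b) ^ 3

theorem Sv_sq (a : Fin 5) : Sv a * Sv a = (1 : F) := by
  fin_cases a <;> simp [Sv]

theorem Q2_three (q : Mt F) (a b : Fin 5) : Q2 q (3 * a) (3 * b) = Sv a * Sv b * q a b ^ 3 := by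
  have e : ∀ a : Fin 5, 2 * (3 * a) = a := by decide
  rw [Q2, e, e]

/-- input of the search -/
structure PNine (g : F) (q : Mt F) : Prop where
  sym : qᵀ = q
  pow81 : ∀ a b, q a b ^ 81 = q a b
  herm : Mh q * q = 1
  trits : ∃ n : Fin 5 → Fin 5 → ZMod 3, (∀ l, n 0 l = 0) ∧ (∀ j, n j 0 = 0) ∧ (∀ j l, n (-l) (-j) = n j l) ∧
      ∀ a b, Mh q a b * q a b = (if a = b then 0 else 1)
        - ∑ j, ∑ l, ((n j l).val : F) * g ^ (eE j l) * ch g l a * ch g (-j) b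
  c3 : ∀ D : Fin 5 → F, (XP0 g (-(Mh q * V0 D * q)) (-(Q2 (Mh q) * V1 D * Q2 q)) - V0 D)ᵀ * q
      = q * (XP0 g (-(Mh q * V0 D * q)) (-(Q2 (Mh q) * V1 D * Q2 q)) - V0 D)

variable {g : F} {L : Type*} [AddCommGroup L] [Module F L] {X Y T : Module.End F L}
  {ι : Mt F × Mt F →ₗ[F] L} {q : Mt F}

theorem GFrame.pnine (h : GFrame g X Y T ι q (Mh q) (Q2 q) (Q2 (Mh q))) (hs : qᵀ = q) (h81 : ∀ a b, q a b ^ 81 = q a b) :
    PNine g q where
  sym := hs
  pow81 := h81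
  herm := h.rq0
  trits := by
    have hd := h.pdata hs fun a b => by
      rw [Q2_three, Q2_three]
      have e1 : Sv a * Sv a = (1 : F) := Sv_sq a
      have e2 : Sv b * Sv b = (1 : F) := Sv_sq b
      linear_combination (Mh q a b ^ 3 * q b a ^ 3) * (Sv a * Sv a * e2 + e1)
    obtain ⟨n, h1, h2, h4, h5⟩ := hd.param h.hg h.h3
    refine ⟨n, h1, h2, h4, fun a b => ?_⟩
    rw [← h5 a b]
    have e2 : q b a = q a b := by conv_lhs => rw [← hs, Matrix.transpose_apply]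
    simp only [e2]
  c3 D := (h.C3m D).1

end
end Cfsg.Agent.H879.E83
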