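import Cfsg.Agent.H879.E83.SThree

/-!
# S5925, box H: the equation C3 for `D = e_2`, pair `(0, 2)`, in the registers of the plan (`plD3`)
-/

set_option autoImplicit false
set_option linter.style.longLine false
set_option linter.unusedVariables false
set_option linter.unusedSimpArgs false

namespace Cfsg.Agent.H879.E83
open Matrix Cfsg.Agent.H780.P9

section
variable {F : Type*} [Field F] {g : F} {q : Mt F}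

theorem z2_02 (g : F) (q : Mt F) : ZZ g q 2 0 2 = ((1 * 1 * q 2 0 ^ 9) * q 2 2 - (1 * (-1) * q 2 3 ^ 9) * q 4 2) := rfl
theorem z2_12 (g : F) (q : Mt F) : ZZ g q 2 1 2 = g ^ 50 * ((1 * 1 * q 1 0 ^ 9) * q 2 2 - (1 * (-1) * q 1 3 ^ 9) * q 4 2) - g ^ 24 * ((-1) * 1) * (((-1) * (-1) * q 3 3 ^ 9) * q 4 0 - ((-1) * 1 * q 3 1 ^ 9) * q 1 0) ^ 3 := rfl
theorem z2_22 (g : F) (q : Mt F) : ZZ g q 2 2 2 = (g ^ 26 * ((1 * 1 * q 2 0 ^ 9) * q 2 0 - (1 * (-1) * q 2 3 ^ 9) * q 4 0) + g ^ 63 * ((1 * 1 * q 1 0 ^ 9) * q 2 1 - (1 * (-1) * q 1 3 ^ 9) * q 4 1) + 0 * ((1 * 1 * q 0 0 ^ 9) * q 2 2 - (1 * (-1) * q 0 3 ^ 9) * q 4 2) + g ^ 7 * (((-1) * 1 * q 4 0 ^ 9) * q 2 3 - ((-1) * (-1) * q 4 3 ^ 9) * q 4 3) + g ^ 74 * (((-1) * 1 * q 3 0 ^ 9) * q 2 4 - ((-1) * (-1) *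 q 3 3 ^ 9) * q 4 4)) - (g ^ 69 * ((1 * (-1) * q 2 3 ^ 9) * q 4 0 - (1 * 1 * q 2 1 ^ 9) * q 1 0) ^ 3 + g ^ 63 * ((1 * (-1) * q 0 3 ^ 9) * q 4 2 - (1 * 1 * q 0 1 ^ 9) * q 1 2) ^ 3 + g ^ 7 * (((-1) * (-1) * q 3 3 ^ 9) * q 4 4 - ((-1) * 1 * q 3 1 ^ 9) * q 1 4) ^ 3 + g ^ 61 * ((1 * (-1) * q 1 3 ^ 9) * q 4 1 - (1 * 1 * q 1 1 ^ 9) * q 1 1) ^ 3 + 0 * (((-1) * (-1) * q 4 3 ^ 9) * q 4 3 - ((-1) * 1 * q 4 1 ^ 9) * q 1 3) ^ 3) - (0 - 1) := by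
  have e : ZZ g q 2 2 2 = (∑ c, k00 g (2 - c) * AA q 2 c c) - (∑ c, k01 g (2 - c) * AA q (2 * 2) (2 * c) (2 * c) ^ 3)
      - (0 - 1) := by
    unfold ZZ; rw [if_pos rfl]; rfl
  rw [e, Fin.sum_univ_five, Fin.sum_univ_five]; rfl
theorem z2_32 (g : F) (q : Mt F) : ZZ g q 2 3 2 = g ^ 70 * (((-1) * 1 * q 4 0 ^ 9) * q 2 2 - ((-1) * (-1) * q 4 3 ^ 9) * q 4 2) - g ^ 32 * (1 * (-1)) * ((1 * (-1) * q 0 3 ^ 9) * q 4 1 - (1 * 1 * q 0 1 ^ 9) * q 1 1) ^ 3 := rfl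
theorem z2_42 (g : F) (q : Mt F) : ZZ g q 2 4 2 = 0 := rfl
theorem z2_00 (g : F) (q : Mt F) : ZZ g q 2 0 0 = (0 * ((1 * 1 * q 2 0 ^ 9) * q 2 0 - (1 * (-1) * q 2 3 ^ 9) * q 4 0) + g ^ 7 * ((1 * 1 * q 1 0 ^ 9) * q 2 1 - (1 * (-1) * q 1 3 ^ 9) * q 4 1) + g ^ 74 * ((1 * 1 * q 0 0 ^ 9) * q 2 2 - (1 * (-1) * q 0 3 ^ 9) * q 4 2) + g ^ 26 * (((-1) * 1 * q 4 0 ^ 9) * q 2 3 - ((-1) * (-1) * q 4 3 ^ 9) * q 4 3) + g ^ 63 * (((-1) * 1 * q 3 0 ^ 9) * q 2 4 - ((-1) * (-1) * q 3 3 ^ 9) * q 4 4)) - (g ^ 7 * ((1 * (-1) * q 2 3 ^ 9) * q 4 0 - (1 * 1 * q 2 1 ^ 9) * q 1 0) ^ 3 + g ^ 61 * ((1 * (-1) * q 0 3 ^ 9) * q 4 2 - (1 * 1 * q 0 1 ^ 9) * q 1 2) ^ 3 + 0 * (((-1) * (-1) * q 3 3 ^ 9) * q 4 4 - ((-1) * 1 * q 3 1 ^ 9) * q 1 4) ^ 3 + g ^ 69 * ((1 * (-1) * q 1 3 ^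 9) * q 4 1 - (1 * 1 * q 1 1 ^ 9) * q 1 1) ^ 3 + g ^ 63 * (((-1) * (-1) * q 4 3 ^ 9) * q 4 3 - ((-1) * 1 * q 4 1 ^ 9) * q 1 3) ^ 3) - (0 - 0) := by
  have e : ZZ g q 2 0 0 = (∑ c, k00 g (0 - c) * AA q 2 c c) - (∑ c, k01 g (0 - c) * AA q (2 * 2) (2 * c) (2 * c) ^ 3)
      - (0 - 0) := by
    unfold ZZ; rw [if_pos rfl]; rfl
  rw [e, Fin.sum_univ_five, Fin.sum_univ_five]; rfl
theorem z2_10 (g : F) (q : Mt F) : ZZ g q 2 1 0 = g ^ 70 * ((1 * 1 * q 1 0 ^ 9) * q 2 0 - (1 * (-1) * q 1 3 ^ 9) * q 4 0) - g ^ 64 * ((-1) * 1) * (((-1) * (-1) * q 4 3 ^ 9) * q 4 2 - ((-1) * 1 * q 4 1 ^ 9) * q 1 2) ^ 3 := rfl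
theorem z2_20 (g : F) (q : Mt F) : ZZ g q 2 2 0 = 0 := rfl
theorem z2_30 (g : F) (q : Mt F) : ZZ g q 2 3 0 = (((-1) * 1 * q 4 0 ^ 9) * q 2 0 - ((-1) * (-1) * q 4 3 ^ 9) * q 4 0) := rfl
theorem z2_40 (g : F) (q : Mt F) : ZZ g q 2 4 0 = g ^ 50 * (((-1) * 1 * q 3 0 ^ 9) * q 2 0 - ((-1) * (-1) * q 3 3 ^ 9) * q 4 0) - g ^ 72 * (1 * (-1)) * ((1 * (-1) * q 2 3 ^ 9) * q 4 1 - (1 * 1 * q 2 1 ^ 9) * q 1 1) ^ 3 := rfl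

/-- the registers of `plD3` -/
theorem d3_eq (h : PNine g q) (h3 : (3 : F) = 0) {c11 c01 c12 : F} (hc11 : c11 = (q 1 1 ^ 3) ^ 3) (hc01 : c01 = (q 0 1 ^ 3) ^ 3)
    (hc12 : c12 = (q 1 2 ^ 3) ^ 3) {R12 R13 R14 R15 R16 R17 R18 R19 : F}
    (hR12 : R12 = ((((q 0 2) ^ 3) ^ 3 * q 2 2) + (((q 2 3) ^ 3) ^ 3 * q 2 4)))
    (hR13 : R13 = ((g ^ 50 * ((c01 * q 2 2) + (((q 1 3) ^ 3) ^ 3 * q 2 4))) + (g ^ 24 * (((((q 3 3) ^ 3) ^ 3 * q 0 4) + (((q 1 3) ^ 3) ^ 3 * q 0 1))) ^ 3)))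
    (hR14 : R14 = ((((((g ^ 26 * ((((q 0 2) ^ 3) ^ 3 * q 0 2) + (((q 2 3) ^ 3) ^ 3 * q 0 4))) + (g ^ 63 * ((c01 * q 1 2) + (((q 1 3) ^ 3) ^ 3 * q 1 4)))) + (g ^ 7 * (-(((((q 0 4) ^ 3) ^ 3 * q 2 3) + (((q 3 4) ^ 3) ^ 3 * q 3 4)))))) + (g ^ 74 * (-(((((q 0 3) ^ 3) ^ 3 * q 2 4) + (((q 3 3) ^ 3) ^ 3 * q 4 4)))))) - ((((g ^ 69 * ((-(((((q 2 3) ^ 3) ^ 3 * q 0 4) + (c12 * q 0 1))))) ^ 3) + (g ^ 63 * ((-(((((q 0 3) ^ 3) ^ 3 * q 2 4) + (c01 * q 1 2))))) ^ 3)) + (g ^ 7 * (((((q 3 3) ^ 3) ^ 3 * q 4 4) + (((q 1 3) ^ 3) ^ 3 * q 1 4))) ^ 3)) + (g ^ 61 * ((-(((((q 1 3) ^ 3) ^ 3 * q 1 4) + (c11 * q 1 1))))) ^ 3))) + g ^ 0))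
    (hR15 : R15 = ((g ^ 70 * (-(((((q 0 4) ^ 3) ^ 3 * q 2 2) + (((q 3 4) ^ 3) ^ 3 * q 2 4))))) + (g ^ 32 * ((-(((((q 0 3) ^ 3) ^ 3 * q 1 4) + (c01 * q 1 1))))) ^ 3)))
    (hR16 : R16 = (((((g ^ 7 * ((c01 * q 1 2) + (((q 1 3) ^ 3) ^ 3 * q 1 4))) + (g ^ 74 * ((((q 0 0) ^ 3) ^ 3 * q 2 2) + (((q 0 3) ^ 3) ^ 3 * q 2 4)))) + (g ^ 26 * (-(((((q 0 4) ^ 3) ^ 3 * q 2 3) + (((q 3 4) ^ 3) ^ 3 * q 3 4)))))) + (g ^ 63 * (-(((((q 0 3) ^ 3) ^ 3 * q 2 4) + (((q 3 3) ^ 3) ^ 3 * q 4 4)))))) - ((((g ^ 7 * ((-(((((q 2 3) ^ 3) ^ 3 * q 0 4) + (c12 * q 0 1))))) ^ 3) + (g ^ 61 * ((-(((((q 0 3) ^ 3) ^ 3 * q 2 4) + (c01 * q 1 2))))) ^ 3)) + (g ^ 69 * ((-(((((q 1 3) ^ 3) ^ 3 * q 1 4) + (c11 * q 1 1))))) ^ 3)) + (g ^ 63 * (((((q 3 4) ^ 3) ^ 3 * q 3 4) + (((q 1 4) ^ 3) ^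 3 * q 1 3))) ^ 3))))
    (hR17 : R17 = ((g ^ 70 * ((c01 * q 0 2) + (((q 1 3) ^ 3) ^ 3 * q 0 4))) + (g ^ 64 * (((((q 3 4) ^ 3) ^ 3 * q 2 4) + (((q 1 4) ^ 3) ^ 3 * q 1 2))) ^ 3)))
    (hR18 : R18 = (-(((((q 0 4) ^ 3) ^ 3 * q 0 2) + (((q 3 4) ^ 3) ^ 3 * q 0 4)))))
    (hR19 : R19 = ((g ^ 50 * (-(((((q 0 3) ^ 3) ^ 3 * q 0 2) + (((q 3 3) ^ 3) ^ 3 * q 0 4))))) + (g ^ 72 * ((-(((((q 2 3) ^ 3) ^ 3 * q 1 4) + (c12 * q 1 1))))) ^ 3))) :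
    (((((q 0 0 * R12) + (q 0 1 * R13)) + (q 0 2 * R14)) + (q 0 3 * R15)) - ((((q 0 2 * R16) + (q 1 2 * R17)) + (q 2 3 * R18)) + (q 2 4 * R19))) = 0 := by
  have hs : ∀ x y, q x y = q y x := fun x y => by
    conv_lhs => rw [← h.sym, Matrix.transpose_apply]
  have s10 := hs 1 0
  have s20 := hs 2 0
  have s21 := hs 2 1
  have s30 := hs 3 0
  have s31 := hs 3 1
  have s32 := hs 3 2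
  have s40 := hs 4 0
  have s41 := hs 4 1
  have s42 := hs 4 2
  have s43 := hs 4 3
  have p : ∀ a b, (((q a b ^ 3) ^ 3) ^ 3) ^ 3 = q a b := fun a b => by
    rw [← pow_mul, ← pow_mul, ← pow_mul]; exact h.pow81 a b
  have n9 : ∀ x : F, x ^ 9 = (x ^ 3) ^ 3 := fun x => by rw [← pow_mul]
  have e02 := h.c3s h3 2 0 2
  rw [Fin.sum_univ_five, Fin.sum_univ_five] at e02
  simp only [z2_02, z2_12, z2_22, z2_32, z2_42, z2_00, z2_10, z2_20, z2_30, z2_40,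
    s10, s20, s21, s30, s31, s32, s40, s41, s42, s43, n9, sb3 h3, ad3 h3, ng3, mul_pow, one_pow, neg_mul, mul_neg,
    one_mul, mul_one, neg_neg, p] at e02
  subst hR19 hR18 hR17 hR16 hR15 hR14 hR13 hR12 hc11 hc01 hc12
  simp only [sb3 h3, ad3 h3, ng3, mul_pow, p]
  linear_combination e02

end
end Cfsg.Agent.H879.E83
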