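import Cfsg.Agent.H879.E83.SThree
import Cfsg.Agent.H780.P9.Iface

/-!
# S5925, box H: the WP lemma of `plS3` (C3 for `D = e_0`)
-/

set_option autoImplicit false
set_option linter.style.longLine false
set_option linter.unusedVariables false
set_option linter.unusedSimpArgs false

namespace Cfsg.Agent.H879.E83
open Matrix Cfsg.Agent.H780.P9

section
variable {F : Type*} [Field F] {g : F} {q : Mt F}


section look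
variable {G : Prop} {ks ls K L L' ls' : List F}

theorem kf' {e : Ex} {p : Plan} {x : F} (hx : e.eval g (K ++ L) [] = x) (hL : L ++ [x] = L')
    (h : WP g G p (K ++ L') ls) : WP g G (.kf e p) (K ++ L) ls := by
  subst hL; rw [← List.append_assoc] at h; exact WP_kf hx h

theorem df' {e : Ex} {p : Plan} {x : F} (hx : e.eval g ks ls = x) (hL : ls ++ [x] = ls')
    (h : WP g G p ks ls') : WP g G (.df e p) ks ls := by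
  subst hL; exact WP_df hx h
theorem gK0 (hK : K.length = 40) (a0 : F) (L : List F) : (K ++ (a0 :: L)).getD 40 0 = a0 := by
  rw [List.getD_append_right _ _ _ _ (by omega), hK]; rfl
theorem gK1 (hK : K.length = 40) (a0 a1 : F) (L : List F) : (K ++ (a0 :: a1 :: L)).getD 41 0 = a1 := by
  rw [List.getD_append_right _ _ _ _ (by omega), hK]; rfl
theorem gK2 (hK : K.length = 40) (a0 a1 a2 : F) (L : List F) : (K ++ (a0 :: a1 :: a2 :: L)).getD 42 0 = a2 := by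
  rw [List.getD_append_right _ _ _ _ (by omega), hK]; rfl
theorem gK3 (hK : K.length = 40) (a0 a1 a2 a3 : F) (L : List F) : (K ++ (a0 :: a1 :: a2 :: a3 :: L)).getD 43 0 = a3 := by
  rw [List.getD_append_right _ _ _ _ (by omega), hK]; rfl
theorem gK4 (hK : K.length = 40) (a0 a1 a2 a3 a4 : F) (L : List F) : (K ++ (a0 :: a1 :: a2 :: a3 :: a4 :: L)).getD 44 0 = a4 := by
  rw [List.getD_append_right _ _ _ _ (by omega), hK]; rfl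
theorem gK5 (hK : K.length = 40) (a0 a1 a2 a3 a4 a5 : F) (L : List F) : (K ++ (a0 :: a1 :: a2 :: a3 :: a4 :: a5 :: L)).getD 45 0 = a5 := by
  rw [List.getD_append_right _ _ _ _ (by omega), hK]; rfl
theorem gK6 (hK : K.length = 40) (a0 a1 a2 a3 a4 a5 a6 : F) (L : List F) : (K ++ (a0 :: a1 :: a2 :: a3 :: a4 :: a5 :: a6 :: L)).getD 46 0 = a6 := by
  rw [List.getD_append_right _ _ _ _ (by omega), hK]; rfl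
theorem gK7 (hK : K.length = 40) (a0 a1 a2 a3 a4 a5 a6 a7 : F) (L : List F) : (K ++ (a0 :: a1 :: a2 :: a3 :: a4 :: a5 :: a6 :: a7 :: L)).getD 47 0 = a7 := by
  rw [List.getD_append_right _ _ _ _ (by omega), hK]; rfl
theorem gK8 (hK : K.length = 40) (a0 a1 a2 a3 a4 a5 a6 a7 a8 : F) (L : List F) : (K ++ (a0 :: a1 :: a2 :: a3 :: a4 :: a5 :: a6 :: a7 :: a8 :: L)).getD 48 0 = a8 := by
  rw [List.getD_append_right _ _ _ _ (by omega), hK]; rfl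
theorem gK9 (hK : K.length = 40) (a0 a1 a2 a3 a4 a5 a6 a7 a8 a9 : F) (L : List F) : (K ++ (a0 :: a1 :: a2 :: a3 :: a4 :: a5 :: a6 :: a7 :: a8 :: a9 :: L)).getD 49 0 = a9 := by
  rw [List.getD_append_right _ _ _ _ (by omega), hK]; rfl
theorem gK10 (hK : K.length = 40) (a0 a1 a2 a3 a4 a5 a6 a7 a8 a9 a10 : F) (L : List F) : (K ++ (a0 :: a1 :: a2 :: a3 :: a4 :: a5 :: a6 :: a7 :: a8 :: a9 :: a10 :: L)).getD 50 0 = a10 := by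
  rw [List.getD_append_right _ _ _ _ (by omega), hK]; rfl
theorem vL0 (a0 : F) (L : List F) : (a0 :: L).getD 0 0 = a0 := rfl
theorem vL1 (a0 a1 : F) (L : List F) : (a0 :: a1 :: L).getD 1 0 = a1 := rfl
theorem vL2 (a0 a1 a2 : F) (L : List F) : (a0 :: a1 :: a2 :: L).getD 2 0 = a2 := rfl
theorem vL3 (a0 a1 a2 a3 : F) (L : List F) : (a0 :: a1 :: a2 :: a3 :: L).getD 3 0 = a3 := rfl
theorem vL4 (a0 a1 a2 a3 a4 : F) (L : List F) : (a0 :: a1 :: a2 :: a3 :: a4 :: L).getD 4 0 = a4 := rfl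
theorem vL5 (a0 a1 a2 a3 a4 a5 : F) (L : List F) : (a0 :: a1 :: a2 :: a3 :: a4 :: a5 :: L).getD 5 0 = a5 := rfl
theorem vL6 (a0 a1 a2 a3 a4 a5 a6 : F) (L : List F) : (a0 :: a1 :: a2 :: a3 :: a4 :: a5 :: a6 :: L).getD 6 0 = a6 := rfl
theorem vL7 (a0 a1 a2 a3 a4 a5 a6 a7 : F) (L : List F) : (a0 :: a1 :: a2 :: a3 :: a4 :: a5 :: a6 :: a7 :: L).getD 7 0 = a7 := rfl
theorem vL8 (a0 a1 a2 a3 a4 a5 a6 a7 a8 : F) (L : List F) : (a0 :: a1 :: a2 :: a3 :: a4 :: a5 :: a6 :: a7 :: a8 :: L).getD 8 0 = a8 := rfl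
theorem vL9 (a0 a1 a2 a3 a4 a5 a6 a7 a8 a9 : F) (L : List F) : (a0 :: a1 :: a2 :: a3 :: a4 :: a5 :: a6 :: a7 :: a8 :: a9 :: L).getD 9 0 = a9 := rfl
theorem vL10 (a0 a1 a2 a3 a4 a5 a6 a7 a8 a9 a10 : F) (L : List F) : (a0 :: a1 :: a2 :: a3 :: a4 :: a5 :: a6 :: a7 :: a8 :: a9 :: a10 :: L).getD 10 0 = a10 := rfl
theorem vL11 (a0 a1 a2 a3 a4 a5 a6 a7 a8 a9 a10 a11 : F) (L : List F) : (a0 :: a1 :: a2 :: a3 :: a4 :: a5 :: a6 :: a7 :: a8 :: a9 :: a10 :: a11 :: L).getD 11 0 = a11 := rfl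
theorem vL12 (a0 a1 a2 a3 a4 a5 a6 a7 a8 a9 a10 a11 a12 : F) (L : List F) : (a0 :: a1 :: a2 :: a3 :: a4 :: a5 :: a6 :: a7 :: a8 :: a9 :: a10 :: a11 :: a12 :: L).getD 12 0 = a12 := rfl
theorem vL13 (a0 a1 a2 a3 a4 a5 a6 a7 a8 a9 a10 a11 a12 a13 : F) (L : List F) : (a0 :: a1 :: a2 :: a3 :: a4 :: a5 :: a6 :: a7 :: a8 :: a9 :: a10 :: a11 :: a12 :: a13 :: L).getD 13 0 = a13 := rfl
theorem vL14 (a0 a1 a2 a3 a4 a5 a6 a7 a8 a9 a10 a11 a12 a13 a14 : F) (L : List F) : (a0 :: a1 :: a2 :: a3 :: a4 :: a5 :: a6 :: a7 :: a8 :: a9 :: a10 :: a11 :: a12 :: a13 :: a14 :: L).getD 14 0 = a14 := rfl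
theorem vL15 (a0 a1 a2 a3 a4 a5 a6 a7 a8 a9 a10 a11 a12 a13 a14 a15 : F) (L : List F) : (a0 :: a1 :: a2 :: a3 :: a4 :: a5 :: a6 :: a7 :: a8 :: a9 :: a10 :: a11 :: a12 :: a13 :: a14 :: a15 :: L).getD 15 0 = a15 := rfl
theorem vL16 (a0 a1 a2 a3 a4 a5 a6 a7 a8 a9 a10 a11 a12 a13 a14 a15 a16 : F) (L : List F) : (a0 :: a1 :: a2 :: a3 :: a4 :: a5 :: a6 :: a7 :: a8 :: a9 :: a10 :: a11 :: a12 :: a13 :: a14 :: a15 :: a16 :: L).getD 16 0 = a16 := rfl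
theorem vL17 (a0 a1 a2 a3 a4 a5 a6 a7 a8 a9 a10 a11 a12 a13 a14 a15 a16 a17 : F) (L : List F) : (a0 :: a1 :: a2 :: a3 :: a4 :: a5 :: a6 :: a7 :: a8 :: a9 :: a10 :: a11 :: a12 :: a13 :: a14 :: a15 :: a16 :: a17 :: L).getD 17 0 = a17 := rfl
theorem vL18 (a0 a1 a2 a3 a4 a5 a6 a7 a8 a9 a10 a11 a12 a13 a14 a15 a16 a17 a18 : F) (L : List F) : (a0 :: a1 :: a2 :: a3 :: a4 :: a5 :: a6 :: a7 :: a8 :: a9 :: a10 :: a11 :: a12 :: a13 :: a14 :: a15 :: a16 :: a17 :: a18 :: L).getD 18 0 = a18 := rfl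
theorem vL19 (a0 a1 a2 a3 a4 a5 a6 a7 a8 a9 a10 a11 a12 a13 a14 a15 a16 a17 a18 a19 : F) (L : List F) : (a0 :: a1 :: a2 :: a3 :: a4 :: a5 :: a6 :: a7 :: a8 :: a9 :: a10 :: a11 :: a12 :: a13 :: a14 :: a15 :: a16 :: a17 :: a18 :: a19 :: L).getD 19 0 = a19 := rfl
theorem vL20 (a0 a1 a2 a3 a4 a5 a6 a7 a8 a9 a10 a11 a12 a13 a14 a15 a16 a17 a18 a19 a20 : F) (L : List F) : (a0 :: a1 :: a2 :: a3 :: a4 :: a5 :: a6 :: a7 :: a8 :: a9 :: a10 :: a11 :: a12 :: a13 :: a14 :: a15 :: a16 :: a17 :: a18 :: a19 :: a20 :: L).getD 20 0 = a20 := rfl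
theorem vL21 (a0 a1 a2 a3 a4 a5 a6 a7 a8 a9 a10 a11 a12 a13 a14 a15 a16 a17 a18 a19 a20 a21 : F) (L : List F) : (a0 :: a1 :: a2 :: a3 :: a4 :: a5 :: a6 :: a7 :: a8 :: a9 :: a10 :: a11 :: a12 :: a13 :: a14 :: a15 :: a16 :: a17 :: a18 :: a19 :: a20 :: a21 :: L).getD 21 0 = a21 := rfl
theorem vL22 (a0 a1 a2 a3 a4 a5 a6 a7 a8 a9 a10 a11 a12 a13 a14 a15 a16 a17 a18 a19 a20 a21 a22 : F) (L : List F) : (a0 :: a1 :: a2 :: a3 :: a4 :: a5 :: a6 :: a7 :: a8 :: a9 :: a10 :: a11 :: a12 :: a13 :: a14 :: a15 :: a16 :: a17 :: a18 :: a19 :: a20 :: a21 :: a22 :: L).getD 22 0 = a22 := rfl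
end look


/-- the registers of `plS3`, literally -/
theorem s3_raw (h : PNine g q) (h3 : (3 : F) = 0) {Q00 Q01 Q02 Q03 Q04 : F}
    (hQ00 : Q00 = q 0 0 * (q 2 2 ^ 3) ^ 3) (hQ01 : Q01 = q 0 1 * (q 1 2 ^ 3) ^ 3)
    (hQ02 : Q02 = q 0 2 * (q 0 2 ^ 3) ^ 3) (hQ03 : Q03 = q 0 3 * (q 2 4 ^ 3) ^ 3)
    (hQ04 : Q04 = q 0 4 * (q 2 3 ^ 3) ^ 3) {k11 k01 k12 c01 c12 : F} (hk11 : k11 = q 1 1) (hk01 : k01 = q 0 1)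
    (hk12 : k12 = q 1 2) (hc01 : c01 = (q 0 1 ^ 3) ^ 3) (hc12 : c12 = (q 1 2 ^ 3) ^ 3) {A40 A41 A42 A43 A44 A45 A46 A47 A48 A49 A50 R9 R10 R11 R12 R13 R14 R15 R16 R17 R18 R19 R20 R21 R22 : F}
    (hA40 : A40 = (Q00 - Q02))
    (hA41 : A41 = (Q01 - (Q01 ^ 3) ^ 3))
    (hA42 : A42 = (Q02 - (Q00 ^ 3) ^ 3))
    (hA43 : A43 = ((Q04 ^ 3) ^ 3 - Q03))
    (hA44 : A44 = ((Q03 ^ 3) ^ 3 - Q04))
    (hA45 : A45 = ((((((g ^ 7 * A41) + (g ^ 74 * A42)) + (g ^ 26 * A43)) + (g ^ 63 * A44)) - ((((g ^ 7 * A40 ^ 3) + (g ^ 61 * A42 ^ 3)) + (g ^ 69 * A41 ^ 3)) + (g ^ 63 * A43 ^ 3))) + g ^ 0))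
    (hA46 : A46 = (((((g ^ 63 * A40) + (g ^ 7 * A42)) + (g ^ 74 * A43)) + (g ^ 26 * A44)) - ((((g ^ 63 * A40 ^ 3) + (g ^ 7 * A42 ^ 3)) + (g ^ 61 * A44 ^ 3)) + (g ^ 69 * A43 ^ 3))))
    (hA47 : A47 = ((((((g ^ 26 * A40) + (g ^ 63 * A41)) + (g ^ 7 * A43)) + (g ^ 74 * A44)) - ((((g ^ 69 * A40 ^ 3) + (g ^ 63 * A42 ^ 3)) + (g ^ 7 * A44 ^ 3)) + (g ^ 61 * A41 ^ 3))) - g ^ 0))
    (hA48 : A48 = (A47 - A45))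
    (hA49 : A49 = (A46 - A45))
    (hA50 : A50 = (A47 - A46))
    (hR9 : R9 = ((q 2 2 ^ 3) ^ 3 * q 0 2))
    (hR10 : R10 = (R9 - (R9 ^ 3) ^ 3))
    (hR11 : R11 = ((q 0 2 * c12) - (q 2 2 * c01)))
    (hR12 : R12 = (((q 2 3 ^ 3) ^ 3 * q 0 0) - ((q 0 3 ^ 3) ^ 3 * q 0 2)))
    (hR13 : R13 = (((q 2 4 ^ 3) ^ 3 * q 0 2) - ((q 0 4 ^ 3) ^ 3 * q 2 2)))
    (hR14 : R14 = (((q 0 2 ^ 3) ^ 3 * k01) - ((q 0 0 ^ 3) ^ 3 * k12)))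
    (hR15 : R15 = (((q 2 4 ^ 3) ^ 3 * q 0 0) - ((q 0 4 ^ 3) ^ 3 * q 0 2)))
    (hR16 : R16 = (((q 2 3 ^ 3) ^ 3 * k01) - ((q 0 3 ^ 3) ^ 3 * k12)))
    (hR17 : R17 = ((g ^ 50 * R11) - (g ^ 24 * R12 ^ 3)))
    (hR18 : R18 = ((g ^ 32 * R14 ^ 3) - (g ^ 70 * R13)))
    (hR19 : R19 = (-(((g ^ 70 * (R14 ^ 3) ^ 3) + (g ^ 64 * R13 ^ 3)))))
    (hR20 : R20 = (-(((g ^ 50 * R12) + (g ^ 72 * ((R11 ^ 3) ^ 3) ^ 3)))))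
    (hR21 : R21 = (-(((g ^ 50 * (R11 ^ 3) ^ 3) + (g ^ 16 * ((R12 ^ 3) ^ 3) ^ 3)))))
    (hR22 : R22 = ((g ^ 70 * R14) - (g ^ 56 * ((R13 ^ 3) ^ 3) ^ 3))) :
    ((((((q 0 0 * R10) + (k01 * R17)) + (q 0 2 * A48)) + (q 0 3 * R18)) + (q 2 3 * R15)) - ((k12 * R19) + (q 2 4 * R20))) = 0 ∧
    (((((q 0 0 * R21) + (k01 * A49)) + (q 0 2 * R22)) + (q 1 3 * R15)) - (((q 0 4 * R16) + (k11 * R19)) + (q 1 4 * R20))) = 0 ∧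
    ((((((k01 * R10) + (k11 * R17)) + (k12 * A50)) + (q 1 3 * R18)) + (q 2 4 * R16)) - ((q 0 2 * R21) + (q 2 2 * R22))) = 0 := by
  subst hk11 hk01 hk12
  exact s3_eqs h h3 hQ00 hQ01 hQ02 hQ03 hQ04 hc01 hc12 hA40 hA41 hA42 hA43 hA44 (by rw [hA45, pow_zero]) hA46 (by rw [hA47, pow_zero]) hA48 hA49 hA50 hR9 hR10 hR11 hR12 hR13 hR14 hR15 hR16 hR17 hR18 hR19 hR20 hR21 hR22


set_option maxHeartbeats 4000000 in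
/-- **the WP lemma of `plS3`** -/
theorem wp_S3 {p : Mt F} {m : F} {t : Fin 10 → F} (c : Ctx g q p m t) (x y : F) (h : ∀ s, WD1 g q p t x y s) :
    WS3 g q p t x y := by
  have n9 : ∀ x : F, x ^ 9 = (x ^ 3) ^ 3 := fun x => by rw [← pow_mul]
  have m80 := c.m80
  have hp11 : p 1 1 = q 1 1 := by
    have e : p 1 1 = 1 * 1 * q 1 1 := c.papp 1 1
    rw [e]; ring
  have hp01 : p 0 1 = q 0 1 := by
    have e : p 0 1 = 1 * 1 * q 0 1 := c.papp 0 1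
    rw [e]; ring
  have hp12 : p 1 2 = q 1 2 := by
    have e : p 1 2 = 1 * 1 * q 1 2 := c.papp 1 2
    rw [e]; ring
  have hc01 : p 0 1 ^ 9 = (q 0 1 ^ 3) ^ 3 := by rw [hp01, n9]
  have hc12 : p 1 2 ^ 9 = (q 1 2 ^ 3) ^ 3 := by rw [hp12, n9]
  have hQ00 : QQ p 0 0 = q 0 0 * (q 2 2 ^ 3) ^ 3 := by
    have e : QQ p 0 0 = p 0 0 * p 2 2 ^ 9 := rfl
    have e1 : p 0 0 = 1 * 1 * q 0 0 := c.papp 0 0
    have e2 : p 2 2 = 1 * 1 * q 2 2 := c.papp 2 2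
    rw [e, e1, e2]; ring
  have hQ01 : QQ p 0 1 = q 0 1 * (q 1 2 ^ 3) ^ 3 := by
    have e : QQ p 0 1 = p 0 1 * p 2 1 ^ 9 := rfl
    have e1 : p 2 1 = 1 * 1 * q 2 1 := c.papp 2 1
    rw [e, e1, hp01, c.symq 2 1]; ring
  have hQ02 : QQ p 0 2 = q 0 2 * (q 0 2 ^ 3) ^ 3 := by
    have e : QQ p 0 2 = p 0 2 * p 2 0 ^ 9 := rfl
    have e1 : p 0 2 = 1 * 1 * q 0 2 := c.papp 0 2
    have e2 : p 2 0 = 1 * 1 * q 2 0 := c.papp 2 0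
    rw [e, e1, e2, c.symq 2 0]; ring
  have hQ03 : QQ p 0 3 = q 0 3 * (q 2 4 ^ 3) ^ 3 := by
    have e : QQ p 0 3 = p 0 3 * p 2 4 ^ 9 := rfl
    have e1 : p 0 3 = 1 * m * q 0 3 := c.papp 0 3
    have e2 : p 2 4 = 1 * m ^ 71 * q 2 4 := c.papp 2 4
    rw [e, e1, e2]
    calc 1 * m * q 0 3 * (1 * m ^ 71 * q 2 4) ^ 9 = (m ^ 80) ^ 8 * (q 0 3 * (q 2 4 ^ 3) ^ 3) := by ring
      _ = _ := by rw [m80, one_pow, one_mul]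
  have hQ04 : QQ p 0 4 = q 0 4 * (q 2 3 ^ 3) ^ 3 := by
    have e : QQ p 0 4 = p 0 4 * p 2 3 ^ 9 := rfl
    have e1 : p 0 4 = 1 * m ^ 71 * q 0 4 := c.papp 0 4
    have e2 : p 2 3 = 1 * m * q 2 3 := c.papp 2 3
    rw [e, e1, e2]
    calc 1 * m ^ 71 * q 0 4 * (1 * m * q 2 3) ^ 9 = m ^ 80 * (q 0 4 * (q 2 3 ^ 3) ^ 3) := by ring
      _ = _ := by rw [m80, one_mul]
  obtain ⟨A40, hA40⟩ : ∃ z : F, z = (QQ p 0 0 - QQ p 0 2) := ⟨_, rfl⟩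
  obtain ⟨A41, hA41⟩ : ∃ z : F, z = (QQ p 0 1 - (QQ p 0 1 ^ 3) ^ 3) := ⟨_, rfl⟩
  obtain ⟨A42, hA42⟩ : ∃ z : F, z = (QQ p 0 2 - (QQ p 0 0 ^ 3) ^ 3) := ⟨_, rfl⟩
  obtain ⟨A43, hA43⟩ : ∃ z : F, z = ((QQ p 0 4 ^ 3) ^ 3 - QQ p 0 3) := ⟨_, rfl⟩
  obtain ⟨A44, hA44⟩ : ∃ z : F, z = ((QQ p 0 3 ^ 3) ^ 3 - QQ p 0 4) := ⟨_, rfl⟩
  obtain ⟨A45, hA45⟩ : ∃ z : F, z = ((((((g ^ 7 * A41) + (g ^ 74 * A42)) + (g ^ 26 * A43)) + (g ^ 63 * A44)) - ((((g ^ 7 * A40 ^ 3) + (g ^ 61 * A42 ^ 3)) + (g ^ 69 * A41 ^ 3)) + (g ^ 63 * A43 ^ 3))) + g ^ 0) := ⟨_, rfl⟩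
  obtain ⟨A46, hA46⟩ : ∃ z : F, z = (((((g ^ 63 * A40) + (g ^ 7 * A42)) + (g ^ 74 * A43)) + (g ^ 26 * A44)) - ((((g ^ 63 * A40 ^ 3) + (g ^ 7 * A42 ^ 3)) + (g ^ 61 * A44 ^ 3)) + (g ^ 69 * A43 ^ 3))) := ⟨_, rfl⟩
  obtain ⟨A47, hA47⟩ : ∃ z : F, z = ((((((g ^ 26 * A40) + (g ^ 63 * A41)) + (g ^ 7 * A43)) + (g ^ 74 * A44)) - ((((g ^ 69 * A40 ^ 3) + (g ^ 63 * A42 ^ 3)) + (g ^ 7 * A44 ^ 3)) + (g ^ 61 * A41 ^ 3))) - g ^ 0) := ⟨_, rfl⟩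
  obtain ⟨A48, hA48⟩ : ∃ z : F, z = (A47 - A45) := ⟨_, rfl⟩
  obtain ⟨A49, hA49⟩ : ∃ z : F, z = (A46 - A45) := ⟨_, rfl⟩
  obtain ⟨A50, hA50⟩ : ∃ z : F, z = (A47 - A46) := ⟨_, rfl⟩
  obtain ⟨R9, hR9⟩ : ∃ z : F, z = ((q 2 2 ^ 3) ^ 3 * q 0 2) := ⟨_, rfl⟩
  obtain ⟨R10, hR10⟩ : ∃ z : F, z = (R9 - (R9 ^ 3) ^ 3) := ⟨_, rfl⟩
  obtain ⟨R11, hR11⟩ : ∃ z : F, z = ((q 0 2 * p 1 2 ^ 9) - (q 2 2 * p 0 1 ^ 9)) := ⟨_, rfl⟩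
  obtain ⟨R12, hR12⟩ : ∃ z : F, z = (((q 2 3 ^ 3) ^ 3 * q 0 0) - ((q 0 3 ^ 3) ^ 3 * q 0 2)) := ⟨_, rfl⟩
  obtain ⟨R13, hR13⟩ : ∃ z : F, z = (((q 2 4 ^ 3) ^ 3 * q 0 2) - ((q 0 4 ^ 3) ^ 3 * q 2 2)) := ⟨_, rfl⟩
  obtain ⟨R14, hR14⟩ : ∃ z : F, z = (((q 0 2 ^ 3) ^ 3 * p 0 1) - ((q 0 0 ^ 3) ^ 3 * p 1 2)) := ⟨_, rfl⟩
  obtain ⟨R15, hR15⟩ : ∃ z : F, z = (((q 2 4 ^ 3) ^ 3 * q 0 0) - ((q 0 4 ^ 3) ^ 3 * q 0 2)) := ⟨_, rfl⟩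
  obtain ⟨R16, hR16⟩ : ∃ z : F, z = (((q 2 3 ^ 3) ^ 3 * p 0 1) - ((q 0 3 ^ 3) ^ 3 * p 1 2)) := ⟨_, rfl⟩
  obtain ⟨R17, hR17⟩ : ∃ z : F, z = ((g ^ 50 * R11) - (g ^ 24 * R12 ^ 3)) := ⟨_, rfl⟩
  obtain ⟨R18, hR18⟩ : ∃ z : F, z = ((g ^ 32 * R14 ^ 3) - (g ^ 70 * R13)) := ⟨_, rfl⟩
  obtain ⟨R19, hR19⟩ : ∃ z : F, z = (-(((g ^ 70 * (R14 ^ 3) ^ 3) + (g ^ 64 * R13 ^ 3)))) := ⟨_, rfl⟩
  obtain ⟨R20, hR20⟩ : ∃ z : F, z = (-(((g ^ 50 * R12) + (g ^ 72 * ((R11 ^ 3) ^ 3) ^ 3)))) := ⟨_, rfl⟩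
  obtain ⟨R21, hR21⟩ : ∃ z : F, z = (-(((g ^ 50 * (R11 ^ 3) ^ 3) + (g ^ 16 * ((R12 ^ 3) ^ 3) ^ 3)))) := ⟨_, rfl⟩
  obtain ⟨R22, hR22⟩ : ∃ z : F, z = ((g ^ 70 * R14) - (g ^ 56 * ((R13 ^ 3) ^ 3) ^ 3)) := ⟨_, rfl⟩
  obtain ⟨E1, E2, E3⟩ := s3_raw c.nine c.h3 hQ00 hQ01 hQ02 hQ03 hQ04 hp11 hp01 hp12 hc01 hc12 hA40 hA41 hA42 hA43 hA44 hA45 hA46 hA47 hA48 hA49 hA50 hR9 hR10 hR11 hR12 hR13 hR14 hR15 hR16 hR17 hR18 hR19 hR20 hR21 hR22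
  have u7 : ∀ L : List F, (K40 g p t x y ++ L).getD 7 0 = QQ p 0 1 := fun L => rfl
  have u14 : ∀ L : List F, (K40 g p t x y ++ L).getD 14 0 = p 1 1 := fun L => rfl
  have u15 : ∀ L : List F, (K40 g p t x y ++ L).getD 15 0 = p 0 1 := fun L => rfl
  have u16 : ∀ L : List F, (K40 g p t x y ++ L).getD 16 0 = p 1 2 := fun L => rfl
  have u20 : ∀ L : List F, (K40 g p t x y ++ L).getD 20 0 = p 0 1 ^ 9 := fun L => rfl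
  have u21 : ∀ L : List F, (K40 g p t x y ++ L).getD 21 0 = p 1 2 ^ 9 := fun L => rfl
  have u30 : ∀ L : List F, (K40 g p t x y ++ L).getD 30 0 = QQ p 0 2 := fun L => rfl
  have u31 : ∀ L : List F, (K40 g p t x y ++ L).getD 31 0 = QQ p 0 0 := fun L => rfl
  have u34 : ∀ L : List F, (K40 g p t x y ++ L).getD 34 0 = QQ p 0 3 := fun L => rfl
  have u35 : ∀ L : List F, (K40 g p t x y ++ L).getD 35 0 = QQ p 0 4 := fun L => rfl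
  have hl : (K40 g p t x y).length = 40 := rfl
  unfold WS3 plS3
  rw [← List.append_nil (K40 g p t x y)]
  change WP g (Sol g q) _ (K40 g p t x y ++ []) [q 0 0, q 0 2, q 2 2, q 0 3, q 2 3, q 1 3, q 0 4, q 2 4, q 1 4]
  refine kf' (x := A40) (L' := [A40]) (by rw [hA40]; simp only [PM.Ex.eval, u7, u14, u15, u16, u20, u21, u30, u31, u34, u35, gK0 hl, gK1 hl, gK2 hl, gK3 hl, gK4 hl, gK5 hl, gK6 hl, gK7 hl, gK8 hl, gK9 hl, gK10 hl]) rfl ?_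
  refine kf' (x := A41) (L' := [A40, A41]) (by rw [hA41]; simp only [PM.Ex.eval, u7, u14, u15, u16, u20, u21, u30, u31, u34, u35, gK0 hl, gK1 hl, gK2 hl, gK3 hl, gK4 hl, gK5 hl, gK6 hl, gK7 hl, gK8 hl, gK9 hl, gK10 hl]) rfl ?_
  refine kf' (x := A42) (L' := [A40, A41, A42]) (by rw [hA42]; simp only [PM.Ex.eval, u7, u14, u15, u16, u20, u21, u30, u31, u34, u35, gK0 hl, gK1 hl, gK2 hl, gK3 hl, gK4 hl, gK5 hl, gK6 hl, gK7 hl, gK8 hl, gK9 hl, gK10 hl]) rfl ?_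
  refine kf' (x := A43) (L' := [A40, A41, A42, A43]) (by rw [hA43]; simp only [PM.Ex.eval, u7, u14, u15, u16, u20, u21, u30, u31, u34, u35, gK0 hl, gK1 hl, gK2 hl, gK3 hl, gK4 hl, gK5 hl, gK6 hl, gK7 hl, gK8 hl, gK9 hl, gK10 hl]) rfl ?_
  refine kf' (x := A44) (L' := [A40, A41, A42, A43, A44]) (by rw [hA44]; simp only [PM.Ex.eval, u7, u14, u15, u16, u20, u21, u30, u31, u34, u35, gK0 hl, gK1 hl, gK2 hl, gK3 hl, gK4 hl, gK5 hl, gK6 hl, gK7 hl, gK8 hl, gK9 hl, gK10 hl]) rfl ?_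
  refine kf' (x := A45) (L' := [A40, A41, A42, A43, A44, A45]) (by rw [hA45]; simp only [PM.Ex.eval, u7, u14, u15, u16, u20, u21, u30, u31, u34, u35, gK0 hl, gK1 hl, gK2 hl, gK3 hl, gK4 hl, gK5 hl, gK6 hl, gK7 hl, gK8 hl, gK9 hl, gK10 hl]) rfl ?_
  refine kf' (x := A46) (L' := [A40, A41, A42, A43, A44, A45, A46]) (by rw [hA46]; simp only [PM.Ex.eval, u7, u14, u15, u16, u20, u21, u30, u31, u34, u35, gK0 hl, gK1 hl, gK2 hl, gK3 hl, gK4 hl, gK5 hl, gK6 hl, gK7 hl, gK8 hl, gK9 hl, gK10 hl]) rfl ?_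
  refine kf' (x := A47) (L' := [A40, A41, A42, A43, A44, A45, A46, A47]) (by rw [hA47]; simp only [PM.Ex.eval, u7, u14, u15, u16, u20, u21, u30, u31, u34, u35, gK0 hl, gK1 hl, gK2 hl, gK3 hl, gK4 hl, gK5 hl, gK6 hl, gK7 hl, gK8 hl, gK9 hl, gK10 hl]) rfl ?_
  refine kf' (x := A48) (L' := [A40, A41, A42, A43, A44, A45, A46, A47, A48]) (by rw [hA48]; simp only [PM.Ex.eval, u7, u14, u15, u16, u20, u21, u30, u31, u34, u35, gK0 hl, gK1 hl, gK2 hl, gK3 hl, gK4 hl, gK5 hl, gK6 hl, gK7 hl, gK8 hl, gK9 hl, gK10 hl]) rfl ?_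
  refine kf' (x := A49) (L' := [A40, A41, A42, A43, A44, A45, A46, A47, A48, A49]) (by rw [hA49]; simp only [PM.Ex.eval, u7, u14, u15, u16, u20, u21, u30, u31, u34, u35, gK0 hl, gK1 hl, gK2 hl, gK3 hl, gK4 hl, gK5 hl, gK6 hl, gK7 hl, gK8 hl, gK9 hl, gK10 hl]) rfl ?_
  refine kf' (x := A50) (L' := [A40, A41, A42, A43, A44, A45, A46, A47, A48, A49, A50]) (by rw [hA50]; simp only [PM.Ex.eval, u7, u14, u15, u16, u20, u21, u30, u31, u34, u35, gK0 hl, gK1 hl, gK2 hl, gK3 hl, gK4 hl, gK5 hl, gK6 hl, gK7 hl, gK8 hl, gK9 hl, gK10 hl]) rfl ?_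
  refine df' (x := R9) (ls' := [q 0 0, q 0 2, q 2 2, q 0 3, q 2 3, q 1 3, q 0 4, q 2 4, q 1 4, R9]) (by rw [hR9]; simp only [PM.Ex.eval, u7, u14, u15, u16, u20, u21, u30, u31, u34, u35, gK0 hl, gK1 hl, gK2 hl, gK3 hl, gK4 hl, gK5 hl, gK6 hl, gK7 hl, gK8 hl, gK9 hl, gK10 hl, vL0, vL1, vL2, vL3, vL4, vL5, vL6, vL7, vL8, vL9, vL10, vL11, vL12, vL13, vL14, vL15, vL16, vL17, vL18, vL19, vL20, vL21, vL22]) rfl ?_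
  refine df' (x := R10) (ls' := [q 0 0, q 0 2, q 2 2, q 0 3, q 2 3, q 1 3, q 0 4, q 2 4, q 1 4, R9, R10]) (by rw [hR10]; simp only [PM.Ex.eval, u7, u14, u15, u16, u20, u21, u30, u31, u34, u35, gK0 hl, gK1 hl, gK2 hl, gK3 hl, gK4 hl, gK5 hl, gK6 hl, gK7 hl, gK8 hl, gK9 hl, gK10 hl, vL0, vL1, vL2, vL3, vL4, vL5, vL6, vL7, vL8, vL9, vL10, vL11, vL12, vL13, vL14, vL15, vL16, vL17, vL18, vL19, vL20, vL21, vL22]) rfl ?_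
  refine df' (x := R11) (ls' := [q 0 0, q 0 2, q 2 2, q 0 3, q 2 3, q 1 3, q 0 4, q 2 4, q 1 4, R9, R10, R11]) (by rw [hR11]; simp only [PM.Ex.eval, u7, u14, u15, u16, u20, u21, u30, u31, u34, u35, gK0 hl, gK1 hl, gK2 hl, gK3 hl, gK4 hl, gK5 hl, gK6 hl, gK7 hl, gK8 hl, gK9 hl, gK10 hl, vL0, vL1, vL2, vL3, vL4, vL5, vL6, vL7, vL8, vL9, vL10, vL11, vL12, vL13, vL14, vL15, vL16, vL17, vL18, vL19, vL20, vL21, vL22]) rfl ?_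
  refine df' (x := R12) (ls' := [q 0 0, q 0 2, q 2 2, q 0 3, q 2 3, q 1 3, q 0 4, q 2 4, q 1 4, R9, R10, R11, R12]) (by rw [hR12]; simp only [PM.Ex.eval, u7, u14, u15, u16, u20, u21, u30, u31, u34, u35, gK0 hl, gK1 hl, gK2 hl, gK3 hl, gK4 hl, gK5 hl, gK6 hl, gK7 hl, gK8 hl, gK9 hl, gK10 hl, vL0, vL1, vL2, vL3, vL4, vL5, vL6, vL7, vL8, vL9, vL10, vL11, vL12, vL13, vL14, vL15, vL16, vL17, vL18, vL19, vL20, vL21, vL22]) rfl ?_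
  refine df' (x := R13) (ls' := [q 0 0, q 0 2, q 2 2, q 0 3, q 2 3, q 1 3, q 0 4, q 2 4, q 1 4, R9, R10, R11, R12, R13]) (by rw [hR13]; simp only [PM.Ex.eval, u7, u14, u15, u16, u20, u21, u30, u31, u34, u35, gK0 hl, gK1 hl, gK2 hl, gK3 hl, gK4 hl, gK5 hl, gK6 hl, gK7 hl, gK8 hl, gK9 hl, gK10 hl, vL0, vL1, vL2, vL3, vL4, vL5, vL6, vL7, vL8, vL9, vL10, vL11, vL12, vL13, vL14, vL15, vL16, vL17, vL18, vL19, vL20, vL21, vL22]) rfl ?_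
  refine df' (x := R14) (ls' := [q 0 0, q 0 2, q 2 2, q 0 3, q 2 3, q 1 3, q 0 4, q 2 4, q 1 4, R9, R10, R11, R12, R13, R14]) (by rw [hR14]; simp only [PM.Ex.eval, u7, u14, u15, u16, u20, u21, u30, u31, u34, u35, gK0 hl, gK1 hl, gK2 hl, gK3 hl, gK4 hl, gK5 hl, gK6 hl, gK7 hl, gK8 hl, gK9 hl, gK10 hl, vL0, vL1, vL2, vL3, vL4, vL5, vL6, vL7, vL8, vL9, vL10, vL11, vL12, vL13, vL14, vL15, vL16, vL17, vL18, vL19, vL20, vL21, vL22]) rfl ?_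
  refine df' (x := R15) (ls' := [q 0 0, q 0 2, q 2 2, q 0 3, q 2 3, q 1 3, q 0 4, q 2 4, q 1 4, R9, R10, R11, R12, R13, R14, R15]) (by rw [hR15]; simp only [PM.Ex.eval, u7, u14, u15, u16, u20, u21, u30, u31, u34, u35, gK0 hl, gK1 hl, gK2 hl, gK3 hl, gK4 hl, gK5 hl, gK6 hl, gK7 hl, gK8 hl, gK9 hl, gK10 hl, vL0, vL1, vL2, vL3, vL4, vL5, vL6, vL7, vL8, vL9, vL10, vL11, vL12, vL13, vL14, vL15, vL16, vL17, vL18, vL19, vL20, vL21, vL22]) rfl ?_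
  refine df' (x := R16) (ls' := [q 0 0, q 0 2, q 2 2, q 0 3, q 2 3, q 1 3, q 0 4, q 2 4, q 1 4, R9, R10, R11, R12, R13, R14, R15, R16]) (by rw [hR16]; simp only [PM.Ex.eval, u7, u14, u15, u16, u20, u21, u30, u31, u34, u35, gK0 hl, gK1 hl, gK2 hl, gK3 hl, gK4 hl, gK5 hl, gK6 hl, gK7 hl, gK8 hl, gK9 hl, gK10 hl, vL0, vL1, vL2, vL3, vL4, vL5, vL6, vL7, vL8, vL9, vL10, vL11, vL12, vL13, vL14, vL15, vL16, vL17, vL18, vL19, vL20, vL21, vL22]) rfl ?_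
  refine df' (x := R17) (ls' := [q 0 0, q 0 2, q 2 2, q 0 3, q 2 3, q 1 3, q 0 4, q 2 4, q 1 4, R9, R10, R11, R12, R13, R14, R15, R16, R17]) (by rw [hR17]; simp only [PM.Ex.eval, u7, u14, u15, u16, u20, u21, u30, u31, u34, u35, gK0 hl, gK1 hl, gK2 hl, gK3 hl, gK4 hl, gK5 hl, gK6 hl, gK7 hl, gK8 hl, gK9 hl, gK10 hl, vL0, vL1, vL2, vL3, vL4, vL5, vL6, vL7, vL8, vL9, vL10, vL11, vL12, vL13, vL14, vL15, vL16, vL17, vL18, vL19, vL20, vL21, vL22]) rfl ?_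
  refine df' (x := R18) (ls' := [q 0 0, q 0 2, q 2 2, q 0 3, q 2 3, q 1 3, q 0 4, q 2 4, q 1 4, R9, R10, R11, R12, R13, R14, R15, R16, R17, R18]) (by rw [hR18]; simp only [PM.Ex.eval, u7, u14, u15, u16, u20, u21, u30, u31, u34, u35, gK0 hl, gK1 hl, gK2 hl, gK3 hl, gK4 hl, gK5 hl, gK6 hl, gK7 hl, gK8 hl, gK9 hl, gK10 hl, vL0, vL1, vL2, vL3, vL4, vL5, vL6, vL7, vL8, vL9, vL10, vL11, vL12, vL13, vL14, vL15, vL16, vL17, vL18, vL19, vL20, vL21, vL22]) rfl ?_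
  refine df' (x := R19) (ls' := [q 0 0, q 0 2, q 2 2, q 0 3, q 2 3, q 1 3, q 0 4, q 2 4, q 1 4, R9, R10, R11, R12, R13, R14, R15, R16, R17, R18, R19]) (by rw [hR19]; simp only [PM.Ex.eval, u7, u14, u15, u16, u20, u21, u30, u31, u34, u35, gK0 hl, gK1 hl, gK2 hl, gK3 hl, gK4 hl, gK5 hl, gK6 hl, gK7 hl, gK8 hl, gK9 hl, gK10 hl, vL0, vL1, vL2, vL3, vL4, vL5, vL6, vL7, vL8, vL9, vL10, vL11, vL12, vL13, vL14, vL15, vL16, vL17, vL18, vL19, vL20, vL21, vL22]) rfl ?_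
  refine df' (x := R20) (ls' := [q 0 0, q 0 2, q 2 2, q 0 3, q 2 3, q 1 3, q 0 4, q 2 4, q 1 4, R9, R10, R11, R12, R13, R14, R15, R16, R17, R18, R19, R20]) (by rw [hR20]; simp only [PM.Ex.eval, u7, u14, u15, u16, u20, u21, u30, u31, u34, u35, gK0 hl, gK1 hl, gK2 hl, gK3 hl, gK4 hl, gK5 hl, gK6 hl, gK7 hl, gK8 hl, gK9 hl, gK10 hl, vL0, vL1, vL2, vL3, vL4, vL5, vL6, vL7, vL8, vL9, vL10, vL11, vL12, vL13, vL14, vL15, vL16, vL17, vL18, vL19, vL20, vL21, vL22]) rfl ?_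
  refine df' (x := R21) (ls' := [q 0 0, q 0 2, q 2 2, q 0 3, q 2 3, q 1 3, q 0 4, q 2 4, q 1 4, R9, R10, R11, R12, R13, R14, R15, R16, R17, R18, R19, R20, R21]) (by rw [hR21]; simp only [PM.Ex.eval, u7, u14, u15, u16, u20, u21, u30, u31, u34, u35, gK0 hl, gK1 hl, gK2 hl, gK3 hl, gK4 hl, gK5 hl, gK6 hl, gK7 hl, gK8 hl, gK9 hl, gK10 hl, vL0, vL1, vL2, vL3, vL4, vL5, vL6, vL7, vL8, vL9, vL10, vL11, vL12, vL13, vL14, vL15, vL16, vL17, vL18, vL19, vL20, vL21, vL22]) rfl ?_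
  refine df' (x := R22) (ls' := [q 0 0, q 0 2, q 2 2, q 0 3, q 2 3, q 1 3, q 0 4, q 2 4, q 1 4, R9, R10, R11, R12, R13, R14, R15, R16, R17, R18, R19, R20, R21, R22]) (by rw [hR22]; simp only [PM.Ex.eval, u7, u14, u15, u16, u20, u21, u30, u31, u34, u35, gK0 hl, gK1 hl, gK2 hl, gK3 hl, gK4 hl, gK5 hl, gK6 hl, gK7 hl, gK8 hl, gK9 hl, gK10 hl, vL0, vL1, vL2, vL3, vL4, vL5, vL6, vL7, vL8, vL9, vL10, vL11, vL12, vL13, vL14, vL15, vL16, vL17, vL18, vL19, vL20, vL21, vL22]) rfl ?_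
  refine WP_fl (ls' := [q 0 0, q 0 2, q 2 2, q 0 3, q 2 3, q 1 3, q 0 4, q 2 4, q 1 4]) ?_ rfl ?_
  · intro e he
    simp only [List.mem_cons, List.not_mem_nil, or_false] at he
    rcases he with rfl | rfl | rfl
    · simp only [PM.Ex.eval, u7, u14, u15, u16, u20, u21, u30, u31, u34, u35, gK0 hl, gK1 hl, gK2 hl, gK3 hl, gK4 hl, gK5 hl, gK6 hl, gK7 hl, gK8 hl, gK9 hl, gK10 hl, vL0, vL1, vL2, vL3, vL4, vL5, vL6, vL7, vL8, vL9, vL10, vL11, vL12, vL13, vL14, vL15, vL16, vL17, vL18, vL19, vL20, vL21, vL22]; exact E1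
    · simp only [PM.Ex.eval, u7, u14, u15, u16, u20, u21, u30, u31, u34, u35, gK0 hl, gK1 hl, gK2 hl, gK3 hl, gK4 hl, gK5 hl, gK6 hl, gK7 hl, gK8 hl, gK9 hl, gK10 hl, vL0, vL1, vL2, vL3, vL4, vL5, vL6, vL7, vL8, vL9, vL10, vL11, vL12, vL13, vL14, vL15, vL16, vL17, vL18, vL19, vL20, vL21, vL22]; exact E2
    · simp only [PM.Ex.eval, u7, u14, u15, u16, u20, u21, u30, u31, u34, u35, gK0 hl, gK1 hl, gK2 hl, gK3 hl, gK4 hl, gK5 hl, gK6 hl, gK7 hl, gK8 hl, gK9 hl, gK10 hl, vL0, vL1, vL2, vL3, vL4, vL5, vL6, vL7, vL8, vL9, vL10, vL11, vL12, vL13, vL14, vL15, vL16, vL17, vL18, vL19, vL20, vL21, vL22]; exact E3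
  · exact h ![A40, A41, A42, A43, A44, A45, A46, A47, A48, A49, A50]

end
end Cfsg.Agent.H879.E83
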