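import Cfsg.Agent.H576.E8L.PN

/-!
# S5925, box U: the elements `k(λ) = ph1 (diag (λ^40, λ^9, λ^3, λ^27, λ))`

`kel_iota` : `k(λ)` acts on `iota g (A, B)` by conjugation with `κ(λ) = diag (λ, 1, λ^-9, λ^-36, λ^4)` and its twin.
-/

set_option autoImplicit false
set_option linter.unusedVariables false
set_option linter.style.longLine false

namespace Cfsg.Agent.H879.E83

open Matrix Cfsg Cfsg.Lie Cfsg.Agent.ChevalleyStructure Cfsg.Agent.ChevalleyStructure.Elts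
open Cfsg.Agent.ChevalleyStructure.HMatDiagAll (expo)
open Cfsg.Agent.H992.E8X hiding e8T
open Cfsg.Agent.H238.E8
open Cfsg.Agent.H942.E8Tab Cfsg.Agent.H942.CB Cfsg.Agent.H129.TorusChar Cfsg.Agent.Nodes.RGDChev
open Cfsg.Agent.ChevalleyStructure.CoxeterGeomTypes Cfsg.Agent.KFacts.RgdChevCoord
open Cfsg.Agent.H576.E8L
open Cfsg.Agent.BpExc.FamUntw (phi)

/-! ### diagonal matrices on `io` -/

section
variable {K : Type} [Field K]

/-- conjugation by a diagonal matrix -/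
def cjd (c : Fin 5 → K) (A : Mt K) : Mt K := Matrix.of fun a b => c a * A a b * (c b)⁻¹

theorem cjd_apply (c : Fin 5 → K) (A : Mt K) (a b : Fin 5) : cjd c A a b = c a * A a b * (c b)⁻¹ := rfl

theorem cjd_diag {c : Fin 5 → K} (hc : ∀ a, c a ≠ 0) (A : Mt K) (a : Fin 5) : cjd c A a a = A a a := by
  rw [cjd_apply]
  have := hc a
  field_simp

theorem cjd_trace {c : Fin 5 → K} (hc : ∀ a, c a ≠ 0) (A : Mt K) : (cjd c A).trace = A.trace :=
  Finset.sum_congr rfl fun a _ => cjd_diag hc A a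

theorem ps_cjd {c : Fin 5 → K} (hc : ∀ a, c a ≠ 0) (A : Mt K) (b : Fin 4) : ps (cjd c A) b = ps A b := by
  unfold ps
  exact Finset.sum_congr rfl fun a _ => by rw [cjd_diag hc]

theorem ps8_cjd {c0 c1 : Fin 5 → K} (h0 : ∀ a, c0 a ≠ 0) (h1 : ∀ a, c1 a ≠ 0) (A0 A1 : Mt K) (b : Fin 8) :
    ps8 (cjd c0 A0, cjd c1 A1) b = ps8 (A0, A1) b := by
  unfold ps8
  split_ifs
  · exact ps_cjd h0 A0 _
  · exact ps_cjd h1 A1 _

/-- a diagonal matrix with the weights `c0`, `c1` on `W0`, `W1` -/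
theorem diag_io {d : Fin chevE8.nroots → K} {c0 c1 : Fin 5 → K} (h0 : ∀ a, c0 a ≠ 0) (h1 : ∀ a, c1 a ≠ 0)
    (e0 : ∀ (s : Fin chevE8.nroots) (i j : Fin 5), i ≠ j → s.val = w0 i j → d s = c0 i * (c0 j)⁻¹)
    (e1 : ∀ (s : Fin chevE8.nroots) (i j : Fin 5), i ≠ j → s.val = w1 i j → d s = c1 i * (c1 j)⁻¹) (A0 A1 : Mt K) :
    (Matrix.diagonal (Sum.elim (fun _ => (1 : K)) d)) *ᵥ io K (A0, A1) = io K (cjd c0 A0, cjd c1 A1) := by
  funext a
  rw [Matrix.mulVec_diagonal]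
  rcases a with i | u
  · rw [Sum.elim_inl, one_mul]
    refine (io_inl (A0, A1) i).trans (Eq.trans ?_ (io_inl (cjd c0 A0, cjd c1 A1) i).symm)
    exact Finset.sum_congr rfl fun b _ => by rw [ps8_cjd h0 h1]
  · rw [Sum.elim_inr]
    by_cases hu0 : ∃ i j, i ≠ j ∧ u.val = w0 i j
    · obtain ⟨i, j, hij, hu⟩ := hu0
      rw [io_root0 A0 A1 hij hu, io_root0 _ _ hij hu, e0 u i j hij hu, cjd_apply]
      ring
    · by_cases hu1 : ∃ i j, i ≠ j ∧ u.val = w1 i j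
      · obtain ⟨i, j, hij, hu⟩ := hu1
        rw [io_root1 A0 A1 hij hu, io_root1 _ _ hij hu, e1 u i j hij hu, cjd_apply]
        ring
      · push Not at hu0 hu1
        rw [io_root_out _ hu0 hu1, io_root_out _ hu0 hu1, mul_zero]

/-! ### the element `k(λ)` -/

/-- the entries of the diagonal -/
def kd (l : Kˣ) : Fin 5 → Kˣ := ![l ^ 40, l ^ 9, l ^ 3, l ^ 27, l]

theorem kd_prod {l : Kˣ} (h : l ^ 80 = 1) : ∏ i, kd l i = 1 := by
  rw [Fin.prod_univ_five]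
  show l ^ 40 * l ^ 9 * l ^ 3 * l ^ 27 * l = 1
  rw [← pow_add, ← pow_add, ← pow_add, ← pow_succ, h]

/-- `k(λ)` -/
noncomputable def kel (l : Kˣ) (h : l ^ 80 = 1) : ↥(chevE8.group K) := ph1 K (dg (kd l) (kd_prod h))

/-- exponent of `k(λ)` on the root vector `e_s` -/
def kx (s : ℕ) : ℤ :=
  40 * expo chevE8 (rt1 0 1) s + 49 * expo chevE8 (rt1 1 2) s + 52 * expo chevE8 (rt1 2 3) s +
    79 * expo chevE8 (rt1 3 4) s

/-- exponents of `κ(λ)` -/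
def ke : Fin 5 → ℕ := ![1, 0, 71, 44, 4]

theorem kx_w0 : ∀ i j : Fin 5, i ≠ j → (kx (w0 i j) - ((ke i : ℤ) - (ke j : ℤ))) % 80 = 0 := by decide +kernel
theorem kx_w1 : ∀ i j : Fin 5, i ≠ j → (kx (w1 i j) - (3 * (ke (2 * i) : ℤ) - 3 * (ke (2 * j) : ℤ))) % 80 = 0 := by
  decide +kernel

theorem wv_kd (l : Kˣ) (s : ℕ) : wv rt1 (kd l) s = l ^ kx s := by
  unfold wv kx
  have h0 : pp (kd l) 0 = l ^ (40 : ℤ) := by
    show l ^ 40 = l ^ (40 : ℤ)
    norm_cast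
  have h1 : pp (kd l) 1 = l ^ (49 : ℤ) := by
    show l ^ 40 * l ^ 9 = l ^ (49 : ℤ)
    rw [← pow_add]; norm_cast
  have h2 : pp (kd l) 2 = l ^ (52 : ℤ) := by
    show l ^ 40 * l ^ 9 * l ^ 3 = l ^ (52 : ℤ)
    rw [← pow_add, ← pow_add]; norm_cast
  have h3 : pp (kd l) 3 = l ^ (79 : ℤ) := by
    show l ^ 40 * l ^ 9 * l ^ 3 * l ^ 27 = l ^ (79 : ℤ)
    rw [← pow_add, ← pow_add, ← pow_add]; norm_cast
  rw [h0, h1, h2, h3, ← _root_.zpow_mul, ← _root_.zpow_mul, ← _root_.zpow_mul, ← _root_.zpow_mul,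
    ← _root_.zpow_add, ← _root_.zpow_add, ← _root_.zpow_add]

theorem kel_mat (l : Kˣ) (h : l ^ 80 = 1) :
    (((kel l h : ↥(chevE8.group K)) : GL chevE8.Idx K) : Matrix chevE8.Idx chevE8.Idx K) =
      Matrix.diagonal (Sum.elim (fun _ => (1 : K)) (fun s : Fin chevE8.nroots => ((l ^ kx s.val : Kˣ) : K))) := by
  have a1 := ph1_dg (kd l) (kd_prod h)
  rw [kel, TT_diag' e8T a1.1]
  congr 2
  funext s
  have e : cX e8T (ph1 K (dg (kd l) (kd_prod h))) (vec chevE8 8 s.val) = _ := a1.2 s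
  rw [e, wv_kd]

/-- `κ(λ)` -/
def kap (l : K) : Fin 5 → K := fun a => l ^ ke a
/-- the twin of `κ(λ)` on `W1` -/
def kap1 (l : K) : Fin 5 → K := fun a => kap l (2 * a) ^ 3

theorem kap_ne {l : K} (hl : l ≠ 0) (a : Fin 5) : kap l a ≠ 0 := pow_ne_zero _ hl
theorem kap1_ne {l : K} (hl : l ≠ 0) (a : Fin 5) : kap1 l a ≠ 0 := pow_ne_zero _ (kap_ne hl _)

theorem zp_mod {l : Kˣ} (h : l ^ 80 = 1) {m n : ℤ} (e : (m - n) % 80 = 0) : l ^ m = l ^ n := by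
  have e1 : m = n + 80 * ((m - n) / 80) := by omega
  rw [e1, _root_.zpow_add, _root_.zpow_mul]
  have : l ^ (80 : ℤ) = 1 := by exact_mod_cast h
  rw [this, _root_.one_zpow, mul_one]

theorem kel_io (l : Kˣ) (h : l ^ 80 = 1) (A0 A1 : Mt K) :
    (((kel l h : ↥(chevE8.group K)) : GL chevE8.Idx K) : Matrix chevE8.Idx chevE8.Idx K) *ᵥ io K (A0, A1) =
      io K (cjd (kap (l : K)) A0, cjd (kap1 (l : K)) A1) := by
  rw [kel_mat]
  refine diag_io (kap_ne l.ne_zero) (kap1_ne l.ne_zero) ?_ ?_ A0 A1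
  · intro s i j hij hs
    have e : l ^ kx s.val = l ^ ((ke i : ℤ) - (ke j : ℤ)) := zp_mod h (by rw [hs]; exact kx_w0 i j hij)
    rw [e, _root_.zpow_sub, _root_.zpow_natCast, _root_.zpow_natCast, ← div_eq_mul_inv, div_eq_mul_inv, Units.val_mul,
      Units.val_inv_eq_inv_val, Units.val_pow_eq_pow_val, Units.val_pow_eq_pow_val]
    rfl
  · intro s i j hij hs
    have e : l ^ kx s.val = l ^ (3 * (ke (2 * i) : ℤ) - 3 * (ke (2 * j) : ℤ)) :=
      zp_mod h (by rw [hs]; exact kx_w1 i j hij)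
    have e3 : ∀ n : ℕ, l ^ (3 * (n : ℤ)) = (l ^ n) ^ 3 := by
      intro n
      rw [mul_comm, _root_.zpow_mul, _root_.zpow_natCast]
      norm_cast
    rw [e, _root_.zpow_sub, e3, e3, Units.val_mul, Units.val_inv_eq_inv_val, Units.val_pow_eq_pow_val, Units.val_pow_eq_pow_val,
      Units.val_pow_eq_pow_val, Units.val_pow_eq_pow_val]
    rfl

theorem cjd_cj (c : Fin 5 → K) (r : Fin 5 → ℕ) (g : K) (A : Mt K) : cjd c (cj r g A) = cj r g (cjd c A) := by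
  ext a b
  rw [cjd_apply, cj_apply, cj_apply, cjd_apply]
  ring

/-- **`k(λ)` on the scaled basis.** -/
theorem kel_iota (l : Kˣ) (h : l ^ 80 = 1) (g : K) (A0 A1 : Mt K) :
    (((kel l h : ↥(chevE8.group K)) : GL chevE8.Idx K) : Matrix chevE8.Idx chevE8.Idx K) *ᵥ iota g (A0, A1) =
      iota g (cjd (kap (l : K)) A0, cjd (kap1 (l : K)) A1) := by
  rw [iota_apply, iota_apply, kel_io, cjd_cj, cjd_cj]

end
end Cfsg.Agent.H879.E83
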