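import Cfsg.Agent.H879.E83.Kap

/-!
# S5925, box U: `q = c κ q₀ κ` gives `k(λ) T = T₀ k(λ)` on `u`
-/

set_option autoImplicit false
set_option linter.unusedVariables false
set_option linter.style.longLine false

namespace Cfsg.Agent.H879.E83

open Matrix Cfsg Cfsg.Lie Cfsg.Agent.ChevalleyStructure Cfsg.Agent.ChevalleyStructure.Elts
open Cfsg.Agent.H238.E8 Cfsg.Agent.H576.E8L

section
variable {K : Type} [Field K]

/-- diagonal matrix of the inverses -/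
def dgi (c : Fin 5 → K) : Mt K := Matrix.diagonal fun a => (c a)⁻¹

theorem cjd_eq (c : Fin 5 → K) (A : Mt K) : cjd c A = Matrix.diagonal c * A * dgi c := by
  ext a b
  rw [cjd_apply, dgi, Matrix.mul_diagonal, Matrix.diagonal_mul]

theorem dg_dgi {c : Fin 5 → K} (hc : ∀ a, c a ≠ 0) : Matrix.diagonal c * dgi c = 1 := by
  rw [dgi, Matrix.diagonal_mul_diagonal, ← Matrix.diagonal_one]
  congr 1
  funext a
  exact mul_inv_cancel₀ (hc a)

theorem dgi_dg {c : Fin 5 → K} (hc : ∀ a, c a ≠ 0) : dgi c * Matrix.diagonal c = 1 := mul_eq_one_comm.1 (dg_dgi hc)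

/-- the matrix identity -/
theorem cjd_conj {c : Fin 5 → K} (hc : ∀ a, c a ≠ 0) {z : K} (hz : z ≠ 0) {q0 r0 q r : Mt K} (h0 : r0 * q0 = 1)
    (h : r * q = 1) (hq : ∀ a b, q a b = z * c a * c b * q0 a b) (A : Mt K) :
    cjd c (-(r * Aᵀ * q)) = -(r0 * (cjd c A)ᵀ * q0) := by
  have e1 : q = z • (Matrix.diagonal c * q0 * Matrix.diagonal c) := by
    ext a b
    rw [Matrix.smul_apply, Matrix.mul_diagonal, Matrix.diagonal_mul, hq, smul_eq_mul]; ring
  have i1 := dg_dgi hc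
  have i2 := dgi_dg hc
  have e2 : r = z⁻¹ • (dgi c * r0 * dgi c) := by
    have e3 : (z⁻¹ • (dgi c * r0 * dgi c)) * q = 1 := by
      rw [e1, Matrix.smul_mul, Matrix.mul_smul, smul_smul, inv_mul_cancel₀ hz, one_smul]
      calc dgi c * r0 * dgi c * (Matrix.diagonal c * q0 * Matrix.diagonal c)
          = dgi c * (r0 * (dgi c * Matrix.diagonal c) * q0) * Matrix.diagonal c := by simp only [Matrix.mul_assoc]
        _ = 1 := by rw [i2, Matrix.mul_one, h0, Matrix.mul_one, i2]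
    calc r = (z⁻¹ • (dgi c * r0 * dgi c)) * q * r := by rw [e3, Matrix.one_mul]
      _ = (z⁻¹ • (dgi c * r0 * dgi c)) * (q * r) := Matrix.mul_assoc _ _ _
      _ = _ := by rw [mul_eq_one_comm.1 h, Matrix.mul_one]
  have t1 : (dgi c)ᵀ = dgi c := Matrix.diagonal_transpose _
  have e4 : r * Aᵀ * q = dgi c * r0 * (dgi c * Aᵀ * Matrix.diagonal c) * q0 * Matrix.diagonal c := by
    rw [e1, e2, Matrix.smul_mul, Matrix.smul_mul, Matrix.mul_smul, smul_smul, inv_mul_cancel₀ hz, one_smul]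
    simp only [Matrix.mul_assoc]
  have e5 : (cjd c A)ᵀ = dgi c * Aᵀ * Matrix.diagonal c := by
    rw [cjd_eq, Matrix.transpose_mul, Matrix.transpose_mul, t1, Matrix.diagonal_transpose, Matrix.mul_assoc]
  rw [cjd_eq, e5, e4, Matrix.mul_neg, Matrix.neg_mul]
  congr 1
  calc Matrix.diagonal c * (dgi c * r0 * (dgi c * Aᵀ * Matrix.diagonal c) * q0 * Matrix.diagonal c) * dgi c
      = (Matrix.diagonal c * dgi c) * (r0 * (dgi c * Aᵀ * Matrix.diagonal c) * q0) * (Matrix.diagonal c * dgi c) := by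
        simp only [Matrix.mul_assoc]
    _ = _ := by rw [i1, Matrix.one_mul, Matrix.mul_one]

theorem Q2_mul {q r : Mt K} (h3 : (3 : K) = 0) (h : r * q = 1) : Q2 r * Q2 q = 1 := by
  have c3 : ∀ x y : K, (x + y) ^ 3 = x ^ 3 + y ^ 3 := fun x y => by linear_combination (x * y ^ 2 + x ^ 2 * y) * h3
  have bij : Function.Bijective (fun c : Fin 5 => 3 * c) := by
    rw [Function.Bijective, Function.Injective, Function.Surjective]; decide
  ext a b
  rw [Matrix.mul_apply, ← Fintype.sum_bijective _ bij (fun c => Q2 r a (3 * c) * Q2 q (3 * c) b) _ fun c => rfl]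
  have e : ∀ c : Fin 5, (2 : Fin 5) * (3 * c) = c := by decide
  have e1 : ∀ c, Q2 r a (3 * c) * Q2 q (3 * c) b = Sv (2 * a) * Sv (2 * b) * (r (2 * a) c * q c (2 * b)) ^ 3 := by
    intro c
    have s1 : Sv c * Sv c = (1 : K) := Sv_sq c
    rw [Q2, Q2, e]
    linear_combination (Sv (2 * a) * r (2 * a) c ^ 3 * Sv (2 * b) * q c (2 * b) ^ 3) * s1
  have e2 : ∑ c, (r (2 * a) c * q c (2 * b)) ^ 3 = ((1 : Mt K) (2 * a) (2 * b)) ^ 3 := by
    rw [← h, Matrix.mul_apply, Fin.sum_univ_five, Fin.sum_univ_five, c3, c3, c3, c3]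
  simp only [e1]
  rw [← Finset.mul_sum, e2]
  by_cases hab : a = b
  · subst hab
    rw [Matrix.one_apply_eq, Matrix.one_apply_eq, one_pow, mul_one]
    exact Sv_sq _
  · have h2' : ∀ a b : Fin 5, a ≠ b → (2 : Fin 5) * a ≠ 2 * b := by decide
    have h2 := h2' a b hab
    rw [Matrix.one_apply_ne h2, Matrix.one_apply_ne hab]; ring

theorem Q2_kap {q q0 : Mt K} {z l : K} (hq : ∀ a b, q a b = z * kap l a * kap l b * q0 a b) (a b : Fin 5) :
    Q2 q a b = z ^ 3 * kap1 l a * kap1 l b * Q2 q0 a b := by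
  rw [Q2, Q2, hq, kap1, kap1]; ring

/-- **`k(λ) T = T₀ k(λ)` on `u`**, when `q = z κ q₀ κ`. -/
theorem kel_T [CharP K 3] {g : K} (l : Kˣ) (hl : l ^ 80 = 1) {q q0 : Mt K} (h : Mh q * q = 1) (h0 : Mh q0 * q0 = 1)
    {z : K} (hz : z ≠ 0) (hq : ∀ a b, q a b = z * kap (l : K) a * kap (l : K) b * q0 a b) {T T0 : ↥(chevE8.group K)}
    (hT : ∀ A0 A1 : Mt K, A0.trace = 0 → A1.trace = 0 →
      ((T : GL chevE8.Idx K) : Matrix chevE8.Idx chevE8.Idx K) *ᵥ iota g (A0, A1) =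
        iota g (-(Mh q * A0ᵀ * q), -(Q2 (Mh q) * A1ᵀ * Q2 q)))
    (hT0 : ∀ A0 A1 : Mt K, A0.trace = 0 → A1.trace = 0 →
      ((T0 : GL chevE8.Idx K) : Matrix chevE8.Idx chevE8.Idx K) *ᵥ iota g (A0, A1) =
        iota g (-(Mh q0 * A0ᵀ * q0), -(Q2 (Mh q0) * A1ᵀ * Q2 q0)))
    (A0 A1 : Mt K) (t0 : A0.trace = 0) (t1 : A1.trace = 0) :
    (((kel l hl * T : ↥(chevE8.group K)) : GL chevE8.Idx K) : Matrix chevE8.Idx chevE8.Idx K) *ᵥ iota g (A0, A1) =
      (((T0 * kel l hl : ↥(chevE8.group K)) : GL chevE8.Idx K) : Matrix chevE8.Idx chevE8.Idx K) *ᵥ iota g (A0, A1) := by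
  have h3 : (3 : K) = 0 := by exact_mod_cast CharP.cast_eq_zero K 3
  have hm : ∀ a b : ↥(chevE8.group K), (((a * b : ↥(chevE8.group K)) : GL chevE8.Idx K) : Matrix chevE8.Idx chevE8.Idx K) =
      ((a : GL chevE8.Idx K) : Matrix chevE8.Idx chevE8.Idx K) * ((b : GL chevE8.Idx K) : Matrix chevE8.Idx chevE8.Idx K) :=
    fun _ _ => rfl
  have n0 := kap_ne (K := K) l.ne_zero
  have n1 := kap1_ne (K := K) l.ne_zero
  rw [hm, hm, ← Matrix.mulVec_mulVec, ← Matrix.mulVec_mulVec, hT A0 A1 t0 t1, kel_iota, kel_iota,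
    hT0 _ _ (by rw [cjd_trace n0, t0]) (by rw [cjd_trace n1, t1]), cjd_conj n0 hz h0 h hq,
    cjd_conj n1 (pow_ne_zero 3 hz) (Q2_mul h3 h0) (Q2_mul h3 h) (Q2_kap hq)]

/-- two matrices in normal form (helper947's `Concl`, `KE = ke`) differ by a gauge -/
theorem concl_ratio {q q0 Q : Mt K} {l c l0 c0 : K} (hl : l ^ 80 = 1) (hc : c ^ 10 = 1) (hl0 : l0 ^ 80 = 1)
    (hc0 : c0 ^ 10 = 1) (hq : ∀ a b, q a b = c * (l ^ ke a * l ^ ke b * Q a b))
    (hq0 : ∀ a b, q0 a b = c0 * (l0 ^ ke a * l0 ^ ke b * Q a b)) :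
    ∃ (z : K) (m : Kˣ), z ≠ 0 ∧ m ^ 80 = 1 ∧ ∀ a b, q a b = z * kap (m : K) a * kap (m : K) b * q0 a b := by
  have nz : ∀ {x : K} {n : ℕ}, n ≠ 0 → x ^ n = 1 → x ≠ 0 := by
    rintro x n hn h rfl
    rw [zero_pow hn] at h
    exact zero_ne_one h
  have nl := nz (by norm_num) hl
  have nl0 := nz (by norm_num) hl0
  have nc := nz (by norm_num) hc
  have nc0 := nz (by norm_num) hc0
  refine ⟨c * c0⁻¹, Units.mk0 (l * l0⁻¹) (mul_ne_zero nl (inv_ne_zero nl0)), mul_ne_zero nc (inv_ne_zero nc0), ?_, ?_⟩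
  · apply Units.ext
    rw [Units.val_pow_eq_pow_val, Units.val_mk0, mul_pow, inv_pow, hl, hl0, Units.val_one, inv_one, mul_one]
  · intro a b
    rw [hq, hq0, Units.val_mk0, kap, kap, mul_pow, mul_pow, inv_pow, inv_pow]
    have n1 := pow_ne_zero (ke a) nl0
    have n2 := pow_ne_zero (ke b) nl0
    field_simp

end
end Cfsg.Agent.H879.E83
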