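import Cfsg.Agent.H780.P9.CThree

/-!
# S5925, box H: the equations C3 for `D = e_0` in the registers of the plan (`plS3`)
-/

set_option autoImplicit false
set_option linter.style.longLine false
set_option linter.unusedVariables false
set_option linter.unusedSimpArgs false

namespace Cfsg.Agent.H879.E83
open Matrix Cfsg.Agent.H780.P9

section
variable {F : Type*} [Field F] {g : F} {q : Mt F}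

theorem z0_00 (g : F) (q : Mt F) : ZZ g q 0 0 0 = (0 * ((1 * 1 * q 2 2 ^ 9) * q 0 0 - (1 * 1 * q 2 0 ^ 9) * q 2 0) + g ^ 7 * ((1 * 1 * q 1 2 ^ 9) * q 0 1 - (1 * 1 * q 1 0 ^ 9) * q 2 1) + g ^ 74 * ((1 * 1 * q 0 2 ^ 9) * q 0 2 - (1 * 1 * q 0 0 ^ 9) * q 2 2) + g ^ 26 * (((-1) * 1 * q 4 2 ^ 9) * q 0 3 - ((-1) * 1 * q 4 0 ^ 9) * q 2 3) + g ^ 63 * (((-1) * 1 * q 3 2 ^ 9) * q 0 4 - ((-1) * 1 * q 3 0 ^ 9) * q 2 4)) - (g ^ 7 * ((1 * 1 * q 2 2 ^ 9) * q 0 0 - (1 * 1 * q 2 0 ^ 9) * q 2 0) ^ 3 + g ^ 61 * ((1 * 1 * q 0 2 ^ 9) * q 0 2 - (1 * 1 * q 0 0 ^ 9) * q 2 2) ^ 3 + 0 * (((-1) * 1 * q 3 2 ^ 9) * q 0 4 - ((-1) * 1 * q 3 0 ^ 9) * q 2 4) ^ 3 + g ^ 69 * ((1 * 1 * q 1 2 ^ 9) * q 0 1 - (1 * 1 * q 1 0 ^ 9) * q 2 1) ^ 3 + g ^ 63 * (((-1) * 1 *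 q 4 2 ^ 9) * q 0 3 - ((-1) * 1 * q 4 0 ^ 9) * q 2 3) ^ 3) - (0 - 1) := by
  have e : ZZ g q 0 0 0 = (∑ c, k00 g (0 - c) * AA q 0 c c) - (∑ c, k01 g (0 - c) * AA q (2 * 0) (2 * c) (2 * c) ^ 3)
      - (0 - 1) := by
    unfold ZZ; rw [if_pos rfl]; rfl
  rw [e, Fin.sum_univ_five, Fin.sum_univ_five]; rfl
theorem z0_01 (g : F) (q : Mt F) : ZZ g q 0 0 1 = g ^ 50 * ((1 * 1 * q 2 2 ^ 9) * q 0 1 - (1 * 1 * q 2 0 ^ 9) * q 2 1) - g ^ 16 * (1 * (-1)) * ((1 * 1 * q 0 2 ^ 9) * q 0 3 - (1 * 1 * q 0 0 ^ 9) * q 2 3) ^ 3 := rfl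
theorem z0_02 (g : F) (q : Mt F) : ZZ g q 0 0 2 = ((1 * 1 * q 2 2 ^ 9) * q 0 2 - (1 * 1 * q 2 0 ^ 9) * q 2 2) := rfl
theorem z0_10 (g : F) (q : Mt F) : ZZ g q 0 1 0 = g ^ 70 * ((1 * 1 * q 1 2 ^ 9) * q 0 0 - (1 * 1 * q 1 0 ^ 9) * q 2 0) - g ^ 64 * ((-1) * 1) * (((-1) * 1 * q 4 2 ^ 9) * q 0 2 - ((-1) * 1 * q 4 0 ^ 9) * q 2 2) ^ 3 := rfl
theorem z0_11 (g : F) (q : Mt F) : ZZ g q 0 1 1 = (g ^ 63 * ((1 * 1 * q 2 2 ^ 9) * q 0 0 - (1 * 1 * q 2 0 ^ 9) * q 2 0) + 0 * ((1 * 1 * q 1 2 ^ 9) * q 0 1 - (1 * 1 * q 1 0 ^ 9) * q 2 1) + g ^ 7 * ((1 * 1 * q 0 2 ^ 9) * q 0 2 - (1 * 1 * q 0 0 ^ 9) * q 2 2) + g ^ 74 * (((-1) * 1 * q 4 2 ^ 9) * q 0 3 - ((-1) * 1 * q 4 0 ^ 9) * q 2 3) + g ^ 26 * (((-1) * 1 * q 3 2 ^ 9) * q 0 4 - ((-1) * 1 * q 3 0 ^ 9)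 * q 2 4)) - (g ^ 63 * ((1 * 1 * q 2 2 ^ 9) * q 0 0 - (1 * 1 * q 2 0 ^ 9) * q 2 0) ^ 3 + g ^ 7 * ((1 * 1 * q 0 2 ^ 9) * q 0 2 - (1 * 1 * q 0 0 ^ 9) * q 2 2) ^ 3 + g ^ 61 * (((-1) * 1 * q 3 2 ^ 9) * q 0 4 - ((-1) * 1 * q 3 0 ^ 9) * q 2 4) ^ 3 + 0 * ((1 * 1 * q 1 2 ^ 9) * q 0 1 - (1 * 1 * q 1 0 ^ 9) * q 2 1) ^ 3 + g ^ 69 * (((-1) * 1 * q 4 2 ^ 9) * q 0 3 - ((-1) * 1 * q 4 0 ^ 9) * q 2 3) ^ 3) - (0 - 0) := by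
  have e : ZZ g q 0 1 1 = (∑ c, k00 g (1 - c) * AA q 0 c c) - (∑ c, k01 g (1 - c) * AA q (2 * 0) (2 * c) (2 * c) ^ 3)
      - (0 - 0) := by
    unfold ZZ; rw [if_pos rfl]; rfl
  rw [e, Fin.sum_univ_five, Fin.sum_univ_five]; rfl
theorem z0_12 (g : F) (q : Mt F) : ZZ g q 0 1 2 = g ^ 50 * ((1 * 1 * q 1 2 ^ 9) * q 0 2 - (1 * 1 * q 1 0 ^ 9) * q 2 2) - g ^ 24 * ((-1) * 1) * (((-1) * 1 * q 3 2 ^ 9) * q 0 0 - ((-1) * 1 * q 3 0 ^ 9) * q 2 0) ^ 3 := rfl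
theorem z0_20 (g : F) (q : Mt F) : ZZ g q 0 2 0 = 0 := rfl
theorem z0_21 (g : F) (q : Mt F) : ZZ g q 0 2 1 = g ^ 70 * ((1 * 1 * q 0 2 ^ 9) * q 0 1 - (1 * 1 * q 0 0 ^ 9) * q 2 1) - g ^ 56 * (1 * (-1)) * ((1 * 1 * q 2 2 ^ 9) * q 0 4 - (1 * 1 * q 2 0 ^ 9) * q 2 4) ^ 3 := rfl
theorem z0_22 (g : F) (q : Mt F) : ZZ g q 0 2 2 = (g ^ 26 * ((1 * 1 * q 2 2 ^ 9) * q 0 0 - (1 * 1 * q 2 0 ^ 9) * q 2 0) + g ^ 63 * ((1 * 1 * q 1 2 ^ 9) * q 0 1 - (1 * 1 * q 1 0 ^ 9) * q 2 1) + 0 * ((1 * 1 * q 0 2 ^ 9) * q 0 2 - (1 * 1 * q 0 0 ^ 9) * q 2 2) + g ^ 7 * (((-1) * 1 * q 4 2 ^ 9) * q 0 3 - ((-1) * 1 * q 4 0 ^ 9) * q 2 3) + g ^ 74 * (((-1) * 1 * q 3 2 ^ 9) * q 0 4 - ((-1) * 1 * q 3 0 ^ 9) * q 2 4)) - (g ^ 69 * ((1 * 1 * q 2 2 ^ 9) * q 0 0 - (1 * 1 * q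 2 0 ^ 9) * q 2 0) ^ 3 + g ^ 63 * ((1 * 1 * q 0 2 ^ 9) * q 0 2 - (1 * 1 * q 0 0 ^ 9) * q 2 2) ^ 3 + g ^ 7 * (((-1) * 1 * q 3 2 ^ 9) * q 0 4 - ((-1) * 1 * q 3 0 ^ 9) * q 2 4) ^ 3 + g ^ 61 * ((1 * 1 * q 1 2 ^ 9) * q 0 1 - (1 * 1 * q 1 0 ^ 9) * q 2 1) ^ 3 + 0 * (((-1) * 1 * q 4 2 ^ 9) * q 0 3 - ((-1) * 1 * q 4 0 ^ 9) * q 2 3) ^ 3) - (1 - 0) := by
  have e : ZZ g q 0 2 2 = (∑ c, k00 g (2 - c) * AA q 0 c c) - (∑ c, k01 g (2 - c) * AA q (2 * 0) (2 * c) (2 * c) ^ 3)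
      - (1 - 0) := by
    unfold ZZ; rw [if_pos rfl]; rfl
  rw [e, Fin.sum_univ_five, Fin.sum_univ_five]; rfl
theorem z0_30 (g : F) (q : Mt F) : ZZ g q 0 3 0 = (((-1) * 1 * q 4 2 ^ 9) * q 0 0 - ((-1) * 1 * q 4 0 ^ 9) * q 2 0) := rfl
theorem z0_31 (g : F) (q : Mt F) : ZZ g q 0 3 1 = 0 := rfl
theorem z0_32 (g : F) (q : Mt F) : ZZ g q 0 3 2 = g ^ 70 * (((-1) * 1 * q 4 2 ^ 9) * q 0 2 - ((-1) * 1 * q 4 0 ^ 9) * q 2 2) - g ^ 32 * (1 * (-1)) * ((1 * 1 * q 0 2 ^ 9) * q 0 1 - (1 * 1 * q 0 0 ^ 9) * q 2 1) ^ 3 := rfl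
theorem z0_40 (g : F) (q : Mt F) : ZZ g q 0 4 0 = g ^ 50 * (((-1) * 1 * q 3 2 ^ 9) * q 0 0 - ((-1) * 1 * q 3 0 ^ 9) * q 2 0) - g ^ 72 * (1 * (-1)) * ((1 * 1 * q 2 2 ^ 9) * q 0 1 - (1 * 1 * q 2 0 ^ 9) * q 2 1) ^ 3 := rfl
theorem z0_41 (g : F) (q : Mt F) : ZZ g q 0 4 1 = (((-1) * 1 * q 3 2 ^ 9) * q 0 1 - ((-1) * 1 * q 3 0 ^ 9) * q 2 1) := rfl
theorem z0_42 (g : F) (q : Mt F) : ZZ g q 0 4 2 = 0 := rfl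

theorem sb3 (h3 : (3 : F) = 0) (x y : F) : (x - y) ^ 3 = x ^ 3 - y ^ 3 := by
  linear_combination (x * y ^ 2 - x ^ 2 * y) * h3
theorem ad3 (h3 : (3 : F) = 0) (x y : F) : (x + y) ^ 3 = x ^ 3 + y ^ 3 := by
  linear_combination (x * y ^ 2 + x ^ 2 * y) * h3
theorem ng3 (x : F) : (-x) ^ 3 = -(x ^ 3) := by ring

/-- the registers of `plS3` -/
theorem s3_eqs (h : PNine g q) (h3 : (3 : F) = 0) {Q00 Q01 Q02 Q03 Q04 : F}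
    (hQ00 : Q00 = q 0 0 * (q 2 2 ^ 3) ^ 3) (hQ01 : Q01 = q 0 1 * (q 1 2 ^ 3) ^ 3)
    (hQ02 : Q02 = q 0 2 * (q 0 2 ^ 3) ^ 3) (hQ03 : Q03 = q 0 3 * (q 2 4 ^ 3) ^ 3)
    (hQ04 : Q04 = q 0 4 * (q 2 3 ^ 3) ^ 3) {c01 c12 : F} (hc01 : c01 = (q 0 1 ^ 3) ^ 3) (hc12 : c12 = (q 1 2 ^ 3) ^ 3)
    {A0 A1 A2 A3 A4 Z00 Z11 Z22 d20 d10 d21 u M22 M12 M30 M42 M01 M40 M31 Z12 Z32 Z10 Z40 Z01 Z21 : F}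
    (hA0 : A0 = Q00 - Q02) (hA1 : A1 = Q01 - (Q01 ^ 3) ^ 3) (hA2 : A2 = Q02 - (Q00 ^ 3) ^ 3)
    (hA3 : A3 = (Q04 ^ 3) ^ 3 - Q03) (hA4 : A4 = (Q03 ^ 3) ^ 3 - Q04)
    (hZ00 : Z00 = g ^ 7 * A1 + g ^ 74 * A2 + g ^ 26 * A3 + g ^ 63 * A4
      - (g ^ 7 * A0 ^ 3 + g ^ 61 * A2 ^ 3 + g ^ 69 * A1 ^ 3 + g ^ 63 * A3 ^ 3) + 1)
    (hZ11 : Z11 = g ^ 63 * A0 + g ^ 7 * A2 + g ^ 74 * A3 + g ^ 26 * A4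
      - (g ^ 63 * A0 ^ 3 + g ^ 7 * A2 ^ 3 + g ^ 61 * A4 ^ 3 + g ^ 69 * A3 ^ 3))
    (hZ22 : Z22 = g ^ 26 * A0 + g ^ 63 * A1 + g ^ 7 * A3 + g ^ 74 * A4
      - (g ^ 69 * A0 ^ 3 + g ^ 63 * A2 ^ 3 + g ^ 7 * A4 ^ 3 + g ^ 61 * A1 ^ 3) - 1)
    (hd20 : d20 = Z22 - Z00) (hd10 : d10 = Z11 - Z00) (hd21 : d21 = Z22 - Z11)
    (hu : u = (q 2 2 ^ 3) ^ 3 * q 0 2) (hM22 : M22 = u - (u ^ 3) ^ 3) (hM12 : M12 = q 0 2 * c12 - q 2 2 * c01)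
    (hM30 : M30 = (q 2 3 ^ 3) ^ 3 * q 0 0 - (q 0 3 ^ 3) ^ 3 * q 0 2)
    (hM42 : M42 = (q 2 4 ^ 3) ^ 3 * q 0 2 - (q 0 4 ^ 3) ^ 3 * q 2 2)
    (hM01 : M01 = (q 0 2 ^ 3) ^ 3 * q 0 1 - (q 0 0 ^ 3) ^ 3 * q 1 2)
    (hM40 : M40 = (q 2 4 ^ 3) ^ 3 * q 0 0 - (q 0 4 ^ 3) ^ 3 * q 0 2)
    (hM31 : M31 = (q 2 3 ^ 3) ^ 3 * q 0 1 - (q 0 3 ^ 3) ^ 3 * q 1 2)
    (hZ12 : Z12 = g ^ 50 * M12 - g ^ 24 * M30 ^ 3) (hZ32 : Z32 = g ^ 32 * M01 ^ 3 - g ^ 70 * M42)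
    (hZ10 : Z10 = -(g ^ 70 * (M01 ^ 3) ^ 3 + g ^ 64 * M42 ^ 3))
    (hZ40 : Z40 = -(g ^ 50 * M30 + g ^ 72 * ((M12 ^ 3) ^ 3) ^ 3))
    (hZ01 : Z01 = -(g ^ 50 * (M12 ^ 3) ^ 3 + g ^ 16 * ((M30 ^ 3) ^ 3) ^ 3))
    (hZ21 : Z21 = g ^ 70 * M01 - g ^ 56 * ((M42 ^ 3) ^ 3) ^ 3) :
    q 0 0 * M22 + q 0 1 * Z12 + q 0 2 * d20 + q 0 3 * Z32 + q 2 3 * M40 - (q 1 2 * Z10 + q 2 4 * Z40) = 0 ∧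
    q 0 0 * Z01 + q 0 1 * d10 + q 0 2 * Z21 + q 1 3 * M40 - (q 0 4 * M31 + q 1 1 * Z10 + q 1 4 * Z40) = 0 ∧
    q 0 1 * M22 + q 1 1 * Z12 + q 1 2 * d21 + q 1 3 * Z32 + q 2 4 * M31 - (q 0 2 * Z01 + q 2 2 * Z21) = 0 := by
  have hs : ∀ x y, q x y = q y x := fun x y => by
    conv_lhs => rw [← h.sym, Matrix.transpose_apply]
  have s10 := hs 1 0
  have s20 := hs 2 0
  have s21 := hs 2 1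
  have s30 := hs 3 0
  have s31 := hs 3 1
  have s32 := hs 3 2
  have s40 := hs 4 0
  have s41 := hs 4 1
  have s42 := hs 4 2
  have s43 := hs 4 3
  have p : ∀ a b, (((q a b ^ 3) ^ 3) ^ 3) ^ 3 = q a b := fun a b => by
    rw [← pow_mul, ← pow_mul, ← pow_mul]; exact h.pow81 a b
  have n9 : ∀ x : F, x ^ 9 = (x ^ 3) ^ 3 := fun x => by rw [← pow_mul]
  have e02 := h.c3s h3 0 0 2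
  have e01 := h.c3s h3 0 0 1
  have e12 := h.c3s h3 0 1 2
  rw [Fin.sum_univ_five, Fin.sum_univ_five] at e02 e01 e12
  simp only [z0_00, z0_01, z0_02, z0_10, z0_11, z0_12, z0_20, z0_21, z0_22, z0_30, z0_31, z0_32, z0_40, z0_41, z0_42,
    s10, s20, s21, s30, s31, s32, s40, s41, s42, s43, n9, sb3 h3, ad3 h3, ng3, mul_pow, one_pow, neg_mul, mul_neg,
    one_mul, mul_one, neg_neg, p] at e02 e01 e12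
  subst hZ12 hZ32 hZ10 hZ40 hZ01 hZ21 hM22 hM12 hM30 hM42 hM01 hM40 hM31 hu hd20 hd10 hd21 hZ00 hZ11 hZ22 hA0 hA1 hA2 hA3 hA4 hc01 hc12 hQ00 hQ01 hQ02 hQ03 hQ04
  simp only [sb3 h3, ad3 h3, ng3, mul_pow, p]
  refine ⟨?_, ?_, ?_⟩
  · linear_combination e02
  · linear_combination e01
  · linear_combination e12

end
end Cfsg.Agent.H879.E83
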